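import Cfsg.Agent.RelMcKay.Good
import Cfsg.Agent.CharExt.Extension
import Cfsg.Agent.CharExt.InvCoprime

/-!
# The characters of `p'`-degree of `K S` for a `p'`-group `K` normalised by a `p`-group `S`
-/

set_option autoImplicit false
set_option linter.style.haveILetI false
set_option linter.unusedSectionVars false

open scoped ComplexConjugate
open Cfsg.Agent.Char

namespace Cfsg.Agent.RelMcKay

open Subgroup
open Cfsg.Agent.GlauberCorr

universe u

variable {Γ : Type u} [Group Γ] [Finite Γ] {p : ℕ} [hp : Fact p.Prime]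

theorem detChar_comp {A B : Type u} [Group A] [Group B] [Finite A] [Finite B] {χ : B → ℂ}
    (hχ : Cfsg.IsCharacter B χ) (φ : A →* B) (a : A) :
    Cfsg.detChar (fun x => χ (φ x)) a = Cfsg.detChar χ (φ a) := by
  obtain ⟨n, σ, rfl⟩ := hχ
  rw [CharExt.detChar_eq σ rfl (φ a)]
  exact CharExt.detChar_eq (σ.comp φ : Representation ℂ A (Fin n → ℂ)) rfl a

/-- A `p'`-group `K` normalised by a `p`-group `S`. -/
structure KS (p : ℕ) (K S : Subgroup Γ) : Prop where
  hK : ¬ p ∣ Nat.card K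
  hS : IsPGroup p S
  norm : S ≤ normalizer (K : Set Γ)

namespace KS

variable {K S : Subgroup Γ} (d : KS p K S)
include d

theorem le_norm : K ⊔ S ≤ normalizer (K : Set Γ) := sup_le le_normalizer d.norm

theorem cop : (Nat.card K).Coprime (Nat.card S) := by
  obtain ⟨j, hj⟩ := IsPGroup.iff_card.1 d.hS
  rw [hj]
  exact ((hp.out.coprime_iff_not_dvd.2 d.hK).pow_left j).symm

theorem inf_eq : ∀ x ∈ K, x ∈ S → x = 1 := fun x h1 h2 =>
  (Subgroup.inf_eq_bot_of_coprime d.cop).le (Subgroup.mem_inf.2 ⟨h1, h2⟩)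

theorem exists_decomp (x : (K ⊔ S : Subgroup Γ)) :
    ∃ (k : K) (s : S), (x : Γ) = k * s := by
  obtain ⟨k, hk, s, hs, he⟩ := Coprime.exists_mul_of_mem_sup' d.norm (g := (x : Γ))
    (by rw [sup_comm]; exact x.2)
  exact ⟨⟨k, hk⟩, ⟨s, hs⟩, he⟩

theorem decomp_unique {k k' : K} {s s' : S} (h : (k : Γ) * s = k' * s') : s = s' := by
  have h1 : (k' : Γ)⁻¹ * k = s' * (s : Γ)⁻¹ := by
    rw [eq_mul_inv_iff_mul_eq, mul_assoc, h, inv_mul_cancel_left]
  have h2 := d.inf_eq _ (mul_mem (inv_mem k'.2) k.2) (h1 ▸ mul_mem s'.2 (inv_mem s.2))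
  rw [h1, mul_inv_eq_one] at h2
  exact Subtype.ext h2.symm

theorem sElt_coe (x : (K ⊔ S : Subgroup Γ)) :
    ∃ s : S, (x : Γ) * (s : Γ)⁻¹ ∈ K := by
  obtain ⟨k, s, he⟩ := d.exists_decomp x
  exact ⟨s, by rw [he, mul_inv_cancel_right]; exact k.2⟩

/-- The projection to `S`. -/
noncomputable def proj : (K ⊔ S : Subgroup Γ) →* S :=
  MonoidHom.mk' (fun x => (d.sElt_coe x).choose) fun x y => by
    set a := (d.sElt_coe x).choose with ha
    set b := (d.sElt_coe y).choose with hb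
    set c := (d.sElt_coe (x * y)).choose with hc
    have h1 : (x : Γ) * (a : Γ)⁻¹ ∈ K := (d.sElt_coe x).choose_spec
    have h2 : (y : Γ) * (b : Γ)⁻¹ ∈ K := (d.sElt_coe y).choose_spec
    have h3 : ((x * y : (K ⊔ S : Subgroup Γ)) : Γ) * (c : Γ)⁻¹ ∈ K :=
      (d.sElt_coe (x * y)).choose_spec
    have h4 : (x : Γ) * (a : Γ)⁻¹ * ((a : Γ) * ((y : Γ) * (b : Γ)⁻¹) * (a : Γ)⁻¹) ∈ K :=
      mul_mem h1 ((mem_normalizer_iff.1 (d.norm a.2) _).1 h2)
    refine d.decomp_unique (k := ⟨_, h3⟩) (k' := ⟨_, h4⟩) (s := c) (s' := a * b) ?_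
    simp only [Subgroup.coe_mul]
    group

theorem proj_spec (x : (K ⊔ S : Subgroup Γ)) : (x : Γ) * (d.proj x : Γ)⁻¹ ∈ K :=
  (d.sElt_coe x).choose_spec

theorem proj_K (k : K) : d.proj (inclusion le_sup_left k) = 1 :=
  d.decomp_unique (k := ⟨_, d.proj_spec (inclusion le_sup_left k)⟩) (k' := k) (by simp)

theorem proj_S (s : S) : d.proj (inclusion le_sup_right s) = s :=
  d.decomp_unique (k := ⟨_, d.proj_spec (inclusion le_sup_right s)⟩) (k' := 1) (by simp)

/-- The extension of a linear character of `S`. -/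
noncomputable def lift (l : S →* ℂˣ) : (K ⊔ S : Subgroup Γ) →* ℂˣ := l.comp d.proj

theorem lift_K (l : S →* ℂˣ) (k : K) : d.lift l (inclusion le_sup_left k) = 1 := by
  simp [lift, d.proj_K]

theorem lift_S (l : S →* ℂˣ) (s : S) : d.lift l (inclusion le_sup_right s) = l s := by
  simp [lift, d.proj_S]

theorem hom_ext {f g : (K ⊔ S : Subgroup Γ) →* ℂˣ}
    (hK : ∀ k : K, f (inclusion le_sup_left k) = g (inclusion le_sup_left k))
    (hS : ∀ s : S, f (inclusion le_sup_right s) = g (inclusion le_sup_right s)) : f = g := by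
  refine MonoidHom.ext fun x => ?_
  obtain ⟨k, s, he⟩ := d.exists_decomp x
  rw [show x = inclusion le_sup_left k * inclusion le_sup_right s from Subtype.ext he, map_mul,
    map_mul, hK, hS]

theorem index_eq : ∃ j : ℕ, (K.subgroupOf (K ⊔ S)).index = p ^ j := by
  obtain ⟨j, hj⟩ := IsPGroup.iff_card.1 d.hS
  have h1 : (K.subgroupOf (K ⊔ S)).index ∣ p ^ j := by
    rw [← hj, show (K.subgroupOf (K ⊔ S)).index = K.relIndex (K ⊔ S) from rfl,
      relIndex_sup_eq d.norm]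
    exact relIndex_dvd_card K S
  obtain ⟨i, -, hi⟩ := (Nat.dvd_prime_pow hp.out).1 h1
  exact ⟨i, hi⟩

theorem cop_degree {θ : IrrCharacter K} {n : ℕ} (hn : (θ : K → ℂ) 1 = n) :
    (K.subgroupOf (K ⊔ S)).index.Coprime n := by
  letI := Fintype.ofFinite K
  obtain ⟨m, -, hm, hdvd⟩ := irr_degree_dvd_card θ.2
  rw [hn, Nat.cast_inj] at hm
  obtain ⟨j, hj⟩ := d.index_eq
  rw [hj, hm]
  exact ((hp.out.coprime_iff_not_dvd.2 d.hK).pow_left j).coprime_dvd_right hdvd

/-- The extension with determinant trivial on `S`. -/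
theorem exists_can (θ : IrrCharacter K) (h : ∀ s ∈ S, FixBy s θ) :
    ∃ Θ : IrrCharacter (K ⊔ S : Subgroup Γ), Restr le_sup_left Θ θ ∧
      ∀ s : S, Cfsg.detChar (Θ : (K ⊔ S : Subgroup Γ) → ℂ) (inclusion le_sup_right s) = 1 := by
  classical
  let N := K.subgroupOf (K ⊔ S : Subgroup Γ)
  haveI : N.Normal := normal_subgroupOf_of_le_normalizer d.le_norm
  let e : N ≃* K := subgroupOfEquivOfLe le_sup_left
  let θ' : IrrCharacter N := irrComap e θ
  have hst : (K ⊔ S : Subgroup Γ) ≤ stab θ := sup_le (le_stab_self θ) fun s hs => ⟨d.norm hs, h s hs⟩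
  have hinv : ∀ (g : (K ⊔ S : Subgroup Γ)) (n : N), (θ' : N → ℂ) (CharExt.cj N g n) = (θ' : N → ℂ) n :=
    fun g n => (hst g.2).2 (e n) _ rfl
  obtain ⟨n, -, hn⟩ := irr_one_pos θ'.2
  have hn' : (θ : K → ℂ) 1 = n := by rw [← hn, irrComap_coe, map_one]
  have hlin := CharExt.detChar_isLin (θ' : N → ℂ)
  have hkK : ∀ x : (K ⊔ S : Subgroup Γ), (x : Γ) * (d.proj x : Γ)⁻¹ ∈ K := d.proj_spec
  let kp : (K ⊔ S : Subgroup Γ) → N := fun x => e.symm ⟨_, hkK x⟩
  have hkp : ∀ x, ((kp x : (K ⊔ S : Subgroup Γ)) : Γ) = (x : Γ) * (d.proj x : Γ)⁻¹ := fun x => rfl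
  let μ : (K ⊔ S : Subgroup Γ) → ℂ := fun x => Cfsg.detChar (θ' : N → ℂ) (kp x)
  have hμlin : CharExt.IsLin μ := by
    refine ⟨?_, fun a b => ?_⟩
    · show Cfsg.detChar (θ' : N → ℂ) (kp 1) = 1
      rw [show kp 1 = 1 from Subtype.ext (Subtype.ext (by rw [hkp]; simp)), hlin.1]
    · show Cfsg.detChar (θ' : N → ℂ) (kp (a * b)) = _
      rw [show kp (a * b) = kp a * CharExt.cj N (inclusion le_sup_right (d.proj a)) (kp b) from
        Subtype.ext (Subtype.ext (by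
          rw [Subgroup.coe_mul, Subgroup.coe_mul, hkp, hkp, map_mul, Subgroup.coe_mul,
            show ((CharExt.cj N (inclusion le_sup_right (d.proj a)) (kp b) : N) : (K ⊔ S : Subgroup Γ)).1 =
              (d.proj a : Γ) * ((kp b : (K ⊔ S : Subgroup Γ)) : Γ) * (d.proj a : Γ)⁻¹ from rfl, hkp,
            Subgroup.coe_mul]
          group)), hlin.2, CharExt.detChar_inv N (isCharacter_of_irr θ'.2) hinv]
  obtain ⟨χ, hχ, hres, hdet⟩ := CharExt.exists_char_extension N (θ' : N → ℂ) θ'.2 hinv n hn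
    (d.cop_degree hn') μ hμlin fun m => by
      show Cfsg.detChar (θ' : N → ℂ) (kp m) = _
      congr 1
      refine Subtype.ext (Subtype.ext ?_)
      rw [hkp, show (m : (K ⊔ S : Subgroup Γ)) = inclusion le_sup_left (e m) from rfl, d.proj_K]
      simp
  refine ⟨⟨χ, hχ⟩, fun k => hres (e.symm k), fun s => ?_⟩
  show Cfsg.detChar χ _ = 1
  rw [hdet]
  show Cfsg.detChar (θ' : N → ℂ) (kp (inclusion le_sup_right s)) = 1
  rw [show kp (inclusion le_sup_right s) = 1 from Subtype.ext (Subtype.ext (by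
    rw [hkp, d.proj_S]; simp)), hlin.1]

theorem can_unique {θ : IrrCharacter K} {Θ Θ' : IrrCharacter (K ⊔ S : Subgroup Γ)}
    (hΘ : Restr le_sup_left Θ θ) (hΘ' : Restr le_sup_left Θ' θ)
    (hd : ∀ s : S, Cfsg.detChar (Θ : (K ⊔ S : Subgroup Γ) → ℂ) (inclusion le_sup_right s) = 1)
    (hd' : ∀ s : S, Cfsg.detChar (Θ' : (K ⊔ S : Subgroup Γ) → ℂ) (inclusion le_sup_right s) = 1) :
    Θ = Θ' := by
  classical
  let N := K.subgroupOf (K ⊔ S : Subgroup Γ)
  haveI : N.Normal := normal_subgroupOf_of_le_normalizer d.le_norm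
  let e : N ≃* K := subgroupOfEquivOfLe le_sup_left
  let θ' : IrrCharacter N := irrComap e θ
  obtain ⟨n, -, hn⟩ := irr_one_pos θ'.2
  have hn' : (θ : K → ℂ) 1 = n := by rw [← hn, irrComap_coe, map_one]
  refine Subtype.ext (CharExt.char_eq_of_restrict_eq_of_det_eq N (θ' : N → ℂ) θ'.2 n hn
    (d.cop_degree hn') _ _ (isCharacter_of_irr Θ.2) (isCharacter_of_irr Θ'.2)
    (fun m => hΘ (e m)) (fun m => hΘ' (e m)) (funext fun x => ?_))
  obtain ⟨k, s, he⟩ := d.exists_decomp x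
  rw [show x = ((e.symm k : N) : (K ⊔ S : Subgroup Γ)) * inclusion le_sup_right s from Subtype.ext he,
    (CharExt.detChar_isLin _).2, (CharExt.detChar_isLin _).2, hd, hd',
    CharExt.detChar_restrict N (isCharacter_of_irr Θ.2) (fun m => hΘ (e m)),
    CharExt.detChar_restrict N (isCharacter_of_irr Θ'.2) (fun m => hΘ' (e m))]

/-- The canonical extension. -/
noncomputable def can (θ : IrrCharacter K) (h : ∀ s ∈ S, FixBy s θ) :
    IrrCharacter (K ⊔ S : Subgroup Γ) :=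
  (d.exists_can θ h).choose

theorem can_restr (θ : IrrCharacter K) (h : ∀ s ∈ S, FixBy s θ) :
    Restr le_sup_left (d.can θ h) θ :=
  (d.exists_can θ h).choose_spec.1

theorem can_det (θ : IrrCharacter K) (h : ∀ s ∈ S, FixBy s θ) (s : S) :
    Cfsg.detChar (d.can θ h : (K ⊔ S : Subgroup Γ) → ℂ) (inclusion le_sup_right s) = 1 :=
  (d.exists_can θ h).choose_spec.2 s

/-- The character of `K S` attached to `θ` and a linear character of `S`. -/
noncomputable def ch (θ : IrrCharacter K) (h : ∀ s ∈ S, FixBy s θ) (l : S →* ℂˣ) :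
    IrrCharacter (K ⊔ S : Subgroup Γ) :=
  twist (d.can θ h) (d.lift l)

theorem ch_restr (θ : IrrCharacter K) (h : ∀ s ∈ S, FixBy s θ) (l : S →* ℂˣ) :
    Restr le_sup_left (d.ch θ h l) θ :=
  restr_twist (d.can_restr θ h) (d.lift_K l)

theorem ch_inj {θ θ' : IrrCharacter K} {h : ∀ s ∈ S, FixBy s θ} {h' : ∀ s ∈ S, FixBy s θ'}
    {l l' : S →* ℂˣ} (he : d.ch θ h l = d.ch θ' h' l') : θ = θ' ∧ l = l' := by
  have h1 : θ = θ' := Subtype.ext (funext fun k => by
    rw [← d.ch_restr θ h l k, ← d.ch_restr θ' h' l' k, he])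
  subst h1
  refine ⟨rfl, MonoidHom.ext fun s => ?_⟩
  rw [← d.lift_S l, ← d.lift_S l', twist_inj d.le_norm (d.can_restr θ h) (d.lift_K l)
    (d.lift_K l') he]

/-- Every character of `p'`-degree of `K S` is of this form. -/
theorem exists_ch (χ : IrrCharacter (K ⊔ S : Subgroup Γ))
    (hdeg : ¬ p ∣ Cfsg.charDegree (χ : (K ⊔ S : Subgroup Γ) → ℂ)) :
    ∃ (θ : IrrCharacter K) (h : ∀ s ∈ S, FixBy s θ) (l : S →* ℂˣ), χ = d.ch θ h l := by
  classical
  letI := Fintype.ofFinite (K ⊔ S : Subgroup Γ)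
  let N := K.subgroupOf (K ⊔ S : Subgroup Γ)
  haveI : N.Normal := normal_subgroupOf_of_le_normalizer d.le_norm
  letI := Fintype.ofFinite N
  let e : N ≃* K := subgroupOfEquivOfLe le_sup_left
  obtain ⟨θ₀, m, hθ₀, hm, hres, hval⟩ := CharInd.clifford_exists N χ.2
  let θ : IrrCharacter K := irrComap e.symm ⟨θ₀, hθ₀⟩
  have hθe : ∀ x, (θ : K → ℂ) (e x) = θ₀ x := fun x => by
    rw [irrComap_coe, e.symm_apply_apply]
  obtain ⟨n, -, hn⟩ := irr_one_pos hθ₀
  have hc : Cfsg.charDegree (χ : (K ⊔ S : Subgroup Γ) → ℂ) = m * (CharInd.conjClass N θ₀).card * n :=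
    charDegree_eq_of_nat (by rw [hval, hn]; push_cast; rfl)
  have hone : (CharInd.conjClass N θ₀).card = 1 := by
    obtain ⟨j, hj⟩ := d.index_eq
    rw [CharExt.card_conjClass] at hc ⊢
    have hd : (CharExt.inertia N θ₀).index ∣ p ^ j :=
      hj ▸ Subgroup.index_dvd_of_le (CharExt.le_inertia N (irr_isClassFunction hθ₀))
    obtain ⟨i, -, hi⟩ := (Nat.dvd_prime_pow hp.out).1 hd
    rcases Nat.eq_zero_or_pos i with rfl | hi0
    · rw [hi, pow_zero]
    · exact absurd ((hi ▸ dvd_pow_self p hi0.ne').mul_left m |>.mul_right n) (hc ▸ hdeg)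
  have hsing : CharInd.conjClass N θ₀ = {θ₀} := by
    obtain ⟨ψ, hψ⟩ := Finset.card_eq_one.1 hone
    rw [hψ, Finset.singleton_inj, eq_comm, ← Finset.mem_singleton, ← hψ, CharInd.mem_conjClass]
    exact ⟨1, (CharInd.conjChar_one N θ₀).symm⟩
  have hfix : ∀ s ∈ S, FixBy s θ := by
    intro s hs k k' he
    have hmem : CharInd.conjChar N ⟨s, mem_sup_right hs⟩ θ₀ ∈ CharInd.conjClass N θ₀ :=
      (CharInd.mem_conjClass N).2 ⟨_, rfl⟩
    rw [hsing, Finset.mem_singleton] at hmem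
    have h1 := congrFun hmem (e.symm k)
    rw [CharInd.conjChar_apply] at h1
    rw [← e.apply_symm_apply k, ← e.apply_symm_apply k', hθe, hθe, ← h1]
    exact congrArg θ₀ (Subtype.ext (Subtype.ext he))
  rw [hsing, Finset.sum_singleton] at hres
  have hover : homMult N.subtype χ (irrComap e θ) ≠ 0 := by
    have h1 := classInner_comp_eq_homMult N.subtype χ (irrComap e θ)
    rw [show ((irrComap e θ : IrrCharacter N) : N → ℂ) = θ₀ from funext hθe,
      show (fun x : N => (χ : (K ⊔ S : Subgroup Γ) → ℂ) (N.subtype x)) = (m : ℂ) • θ₀ from hres,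
      classInner_smul_left, classInner_irr_self hθ₀, mul_one, Nat.cast_inj] at h1
    exact h1 ▸ hm.ne'
  obtain ⟨β, hβ⟩ := exists_gallagher N (irrComap e θ) (d.can θ hfix)
    (fun x => d.can_restr θ hfix (e x)) χ hover
  letI := Fintype.ofFinite ((K ⊔ S : Subgroup Γ) ⧸ N)
  obtain ⟨b, hb0, hb, hbd⟩ := irr_degree_dvd_card β.2
  have hb1 : b = 1 := by
    obtain ⟨j, hj⟩ := d.index_eq
    rw [show Nat.card ((K ⊔ S : Subgroup Γ) ⧸ N) = N.index from rfl, hj] at hbd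
    obtain ⟨i, -, hi⟩ := (Nat.dvd_prime_pow hp.out).1 hbd
    rcases Nat.eq_zero_or_pos i with rfl | hi0
    · rw [hi, pow_zero]
    refine absurd ?_ hdeg
    have h1 : Cfsg.charDegree (χ : (K ⊔ S : Subgroup Γ) → ℂ) = b * n := charDegree_eq_of_nat (by
      rw [hβ 1, show (d.can θ hfix : (K ⊔ S : Subgroup Γ) → ℂ) 1 = _ from d.can_restr θ hfix 1, QuotientGroup.mk_one,
        hb, irrComap_coe, map_one, show ((⟨θ₀, hθ₀⟩ : IrrCharacter N) : N → ℂ) 1 = (n : ℂ) from hn]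
      push_cast; rfl)
    rw [h1]
    exact (hi ▸ dvd_pow_self p hi0.ne').mul_right n
  obtain ⟨f, hf⟩ := exists_monoidHom_of_degree_one (isCharacter_of_irr β.2)
    (by rw [hb, hb1, Nat.cast_one])
  refine ⟨θ, hfix, (f.comp (QuotientGroup.mk' N)).comp (inclusion le_sup_right),
    Subtype.ext (funext fun x => ?_)⟩
  rw [hβ x, hf, ch, twist_coe]
  congr 2
  refine DFunLike.congr_fun (?_ : f.comp (QuotientGroup.mk' N) = _) x
  refine d.hom_ext (fun k => ?_) (fun s => by rw [d.lift_S]; rfl)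
  rw [d.lift_K]
  show f ((inclusion le_sup_left k : (K ⊔ S : Subgroup Γ)) : (K ⊔ S : Subgroup Γ) ⧸ N) = 1
  rw [(QuotientGroup.eq_one_iff _).2 (show (inclusion le_sup_left k : (K ⊔ S : Subgroup Γ)) ∈ N from k.2), map_one]

theorem charDegree_ch (θ : IrrCharacter K) (h : ∀ s ∈ S, FixBy s θ) (l : S →* ℂˣ) :
    ¬ p ∣ Cfsg.charDegree (d.ch θ h l : (K ⊔ S : Subgroup Γ) → ℂ) := by
  letI := Fintype.ofFinite K
  obtain ⟨n, -, hn, hdvd⟩ := irr_degree_dvd_card θ.2
  rw [charDegree_eq_of_nat (show (d.ch θ h l : (K ⊔ S : Subgroup Γ) → ℂ) 1 = n from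
    (d.ch_restr θ h l 1).trans hn)]
  exact fun hd => d.hK (hd.trans hdvd)

omit d in
theorem mem_norm_sup {g : Γ} (hK : g ∈ normalizer (K : Set Γ))
    (hS : g ∈ normalizer (S : Set Γ)) : g ∈ normalizer ((K ⊔ S : Subgroup Γ) : Set Γ) :=
  normalizer_le_sup K S g hK hS

theorem can_fix {θ : IrrCharacter K} (h : ∀ s ∈ S, FixBy s θ) {g : Γ}
    (hgK : g ∈ normalizer (K : Set Γ)) (hgS : g ∈ normalizer (S : Set Γ)) (hg : FixBy g θ) :
    cjI (mem_norm_sup hgK hgS) (d.can θ h) = d.can θ h := by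
  refine d.can_unique ?_ (d.can_restr θ h) (fun s => ?_) (d.can_det θ h)
  · intro k
    rw [cjI_coe]
    refine (d.can_restr θ h ⟨g * k * g⁻¹, (mem_normalizer_iff.1 hgK k).1 k.2⟩).trans ?_
    exact hg k _ rfl
  · show Cfsg.detChar (fun x => (d.can θ h : (K ⊔ S : Subgroup Γ) → ℂ)
      ((cjE _ (mem_norm_sup hgK hgS)).toMonoidHom x)) (inclusion le_sup_right s) = 1
    rw [detChar_comp (isCharacter_of_irr (d.can θ h).2),
      ← d.can_det θ h ⟨g * s * g⁻¹, (mem_normalizer_iff.1 hgS s).1 s.2⟩]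
    rfl

/-- When an element fixes `ch θ l`. -/
theorem fixBy_ch_iff (θ : IrrCharacter K) (h : ∀ s ∈ S, FixBy s θ) (l : S →* ℂˣ) {g : Γ}
    (hgK : g ∈ normalizer (K : Set Γ)) (hgS : g ∈ normalizer (S : Set Γ)) :
    FixBy g (d.ch θ h l) ↔ FixBy g θ ∧ ∀ s s' : S, (s' : Γ) = g * s * g⁻¹ → l s' = l s := by
  have hn := mem_norm_sup hgK hgS
  let f := (d.lift l).comp (cjE _ hn).toMonoidHom
  have hfK : ∀ k : K, f (inclusion le_sup_left k) = 1 := fun k => by
    show d.lift l (cjE _ hn (inclusion le_sup_left k)) = 1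
    rw [← d.lift_K l ⟨g * k * g⁻¹, (mem_normalizer_iff.1 hgK k).1 k.2⟩]
    rfl
  have hfS : ∀ s : S, f (inclusion le_sup_right s) =
      l ⟨g * s * g⁻¹, (mem_normalizer_iff.1 hgS s).1 s.2⟩ := fun s => by
    rw [← d.lift_S l ⟨g * s * g⁻¹, (mem_normalizer_iff.1 hgS s).1 s.2⟩]
    rfl
  constructor
  · intro hf
    have hθ := fixBy_restr (d.ch_restr θ h l) hf
    refine ⟨hθ, fun s s' he => ?_⟩
    have h1 := (fixBy_iff hn _).1 hf
    have h2 : twist (d.can θ h) f = twist (d.can θ h) (d.lift l) := by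
      refine Eq.trans (Subtype.ext (funext fun x => ?_)) h1
      rw [twist_coe, cjI_coe, ch, twist_coe]
      conv_lhs => arg 2; rw [← d.can_fix h hgK hgS hθ, cjI_coe]
      rfl
    have h3 := DFunLike.congr_fun (twist_inj d.le_norm (d.can_restr θ h) hfK (d.lift_K l) h2)
      (inclusion le_sup_right s)
    rw [hfS, d.lift_S] at h3
    rw [← h3]
    exact congrArg l (Subtype.ext he)
  · rintro ⟨hθ, hl⟩
    have hf : f = d.lift l :=
      d.hom_ext (fun k => by rw [hfK, d.lift_K]) fun s => by rw [hfS, d.lift_S]; exact hl s _ rfl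
    rw [fixBy_iff hn]
    refine Subtype.ext (funext fun x => ?_)
    rw [cjI_coe, ch, twist_coe, twist_coe,
      show d.lift l (cjE _ hn x) = d.lift l x from DFunLike.congr_fun hf x, ← cjI_coe hn,
      d.can_fix h hgK hgS hθ]

/-- The canonical extension is trivial on central elements of `S`. -/
theorem can_mul_central (θ : IrrCharacter K) (h : ∀ s ∈ S, FixBy s θ) {z : Γ} (hz : z ∈ S)
    (hzc : z ∈ center Γ) (x : (K ⊔ S : Subgroup Γ)) :
    (d.can θ h : (K ⊔ S : Subgroup Γ) → ℂ) (⟨z, mem_sup_right hz⟩ * x) =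
      (d.can θ h : (K ⊔ S : Subgroup Γ) → ℂ) x := by
  obtain ⟨k, ρ, hρ, hχ⟩ := (d.can θ h).2
  haveI := hρ
  haveI : Nontrivial (Fin k → ℂ) := Char.nontrivial_of_isIrreducible ρ
  set z' : (K ⊔ S : Subgroup Γ) := ⟨z, mem_sup_right hz⟩
  obtain ⟨c, hc⟩ := CharExt.exists_scalar_of_commute ρ (ρ z') fun n => by
    show ρ z' * ρ n = ρ n * ρ z'
    rw [← map_mul, ← map_mul]
    exact congrArg ρ (Subtype.ext ((mem_center_iff.1 hzc (n : Γ)).symm))
  obtain ⟨n, hn0, hn⟩ := irr_one_pos (d.can θ h).2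
  have hn' : (θ : K → ℂ) 1 = n := (d.can_restr θ h 1).symm.trans hn
  have hdim : Module.finrank ℂ (Fin k → ℂ) = n := by
    have h1 := ρ.char_one
    rw [hχ, hn] at h1
    exact_mod_cast h1.symm
  have hdet : c ^ n = 1 := by
    have h1 := d.can_det θ h ⟨z, hz⟩
    rw [CharExt.detChar_eq ρ hχ] at h1
    change LinearMap.det (ρ z') = 1 at h1
    rwa [hc, LinearMap.det_smul, map_one, mul_one, hdim] at h1
  obtain ⟨j, hj⟩ := d.hS ⟨z, hz⟩
  have hpow : c ^ p ^ j = 1 := by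
    have h1 : ∀ i : ℕ, ρ (z' ^ i) = c ^ i • (1 : Module.End ℂ (Fin k → ℂ)) := by
      intro i
      rw [map_pow, hc, smul_pow, one_pow]
    have h2 := h1 (p ^ j)
    rw [show z' ^ p ^ j = 1 from Subtype.ext (by
      rw [SubgroupClass.coe_pow]; exact congrArg Subtype.val hj), map_one] at h2
    exact (smul_left_injective ℂ (one_ne_zero (α := Module.End ℂ (Fin k → ℂ)))
      (h2.symm.trans (one_smul ℂ _).symm))
  have hndvd : ¬ p ∣ n := by
    letI := Fintype.ofFinite K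
    obtain ⟨m, -, hm, hdvd⟩ := irr_degree_dvd_card θ.2
    rw [hn', Nat.cast_inj] at hm
    exact fun hd => d.hK ((hm ▸ hd).trans hdvd)
  have hc1 : c = 1 := by
    have h3 := Nat.dvd_gcd (orderOf_dvd_of_pow_eq_one hpow) (orderOf_dvd_of_pow_eq_one hdet)
    rwa [((hp.out.coprime_iff_not_dvd.2 hndvd).pow_left j).gcd_eq_one, Nat.dvd_one,
      orderOf_eq_one_iff] at h3
  rw [← hχ, Representation.character, Representation.character, map_mul, hc, hc1, one_smul,
    one_mul]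

end KS

/-! ### Central characters -/

/-- The linear character as an irreducible character. -/
noncomputable def linIrr {Z : Subgroup Γ} (μ : Z →* ℂˣ) : IrrCharacter Z :=
  ⟨fun z => (μ z : ℂ), isIrrCharacter_monoidHom μ⟩

theorem exists_central_scalar {Z M : Subgroup Γ} (hZM : Z ≤ M) (hZc : Z ≤ center Γ)
    (χ : IrrCharacter M) :
    ∃ c : Z →* ℂˣ, (∀ (z : Z) (g : M),
      (χ : M → ℂ) (inclusion hZM z * g) = (c z : ℂ) * (χ : M → ℂ) g) ∧
      ∀ μ : Z →* ℂˣ, rmult hZM χ (linIrr μ) ≠ 0 ↔ c = μ := by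
  classical
  obtain ⟨c, hc⟩ := CharExt.exists_central_hom χ.2 (Z.subgroupOf M) fun z hz =>
    mem_center_iff.2 fun g => Subtype.ext (mem_center_iff.1 (hZc hz) (g : Γ))
  let e : Z.subgroupOf M ≃* Z := subgroupOfEquivOfLe hZM
  have hce : ∀ (z : Z) (g : M), (χ : M → ℂ) (inclusion hZM z * g) =
      (c.comp e.symm.toMonoidHom z : ℂ) * (χ : M → ℂ) g := fun z g => hc (e.symm z) g
  refine ⟨c.comp e.symm.toMonoidHom, hce, fun μ => ?_⟩
  letI := Fintype.ofFinite Z
  obtain ⟨n, hn0, hn⟩ := irr_one_pos χ.2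
  have h := classInner_comp_eq_homMult (inclusion hZM) χ (linIrr μ)
  rw [show (fun z : Z => (χ : M → ℂ) (inclusion hZM z)) =
      (n : ℂ) • (linIrr (c.comp e.symm.toMonoidHom) : Z → ℂ) from funext fun z => by
        have h1 := hce z 1
        rw [mul_one, hn] at h1
        rw [h1, Pi.smul_apply, smul_eq_mul, mul_comm]
        rfl,
    classInner_smul_left, classInner_irrCharacter] at h
  constructor
  · intro hne
    by_contra hcon
    rw [if_neg fun he => hcon (monoidHom_coe_injective (congrArg Subtype.val he)), mul_zero] at h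
    exact hne (Nat.cast_eq_zero.1 h.symm)
  · rintro rfl hz
    rw [if_pos rfl, mul_one, show homMult (inclusion hZM) χ _ = 0 from hz, Nat.cast_inj] at h
    exact hn0.ne' h

/-! ### Good elements of `K S` -/

namespace KS

variable {K S H C : Subgroup Γ} (d : KS p K S)
include d

/-- Goodness only depends on the extendibility of `θ`. -/
theorem good_iff (hCK : C ≤ K) (hCH : C ≤ H) (hHK : H ≤ normalizer (K : Set Γ))
    (hHS : H ≤ normalizer (S : Set Γ)) (hM : ∀ z ∈ H, z ∈ K ⊔ S → z ∈ C)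
    (θ : IrrCharacter K) (ξ : IrrCharacter (K ⊔ S : Subgroup Γ)) (hξ : Restr le_sup_left ξ θ)
    (hfix : ∀ g ∈ H, FixBy g ξ) {y : Γ} (hy : y ∈ H) :
    IsGood (K ⊔ S) H ξ y ↔
      ∀ x ∈ H, x * y * x⁻¹ * y⁻¹ ∈ C →
        Ext (le_sup_left : K ≤ K ⊔ (C ⊔ (zpowers x ⊔ zpowers y))) θ := by
  classical
  have hKM : K ≤ K ⊔ S := le_sup_left
  have hML : K ⊔ S ≤ K ⊔ S ⊔ zpowers y := le_sup_left
  have hL₀ : K ⊔ zpowers y ≤ K ⊔ S ⊔ zpowers y := sup_le_sup_right hKM _
  have hKL₀ : K ≤ K ⊔ zpowers y := le_sup_left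
  have hab₀ : AbMod K (K ⊔ zpowers y) := abMod_sup ((zpowers_le.2 hy).trans hHK)
    fun a ha b hb => by
      obtain ⟨i, rfl⟩ := mem_zpowers_iff.1 ha
      obtain ⟨j, rfl⟩ := mem_zpowers_iff.1 hb
      rw [show y ^ i * y ^ j * (y ^ i)⁻¹ * (y ^ j)⁻¹ = 1 by group]
      exact one_mem _
  have hnM : ∀ g ∈ H, g ∈ normalizer ((K ⊔ S : Subgroup Γ) : Set Γ) := fun g hg =>
    mem_norm_sup (hHK hg) (hHS hg)
  have hfθ : ∀ g ∈ H, FixBy g θ := fun g hg => fixBy_restr hξ (hfix g hg)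
  -- `x` normalises `J ⟨y⟩`
  have hnorm : ∀ (J : Subgroup Γ), C ≤ J → ∀ x ∈ H, x ∈ normalizer (J : Set Γ) →
      x * y * x⁻¹ * y⁻¹ ∈ C → x ∈ normalizer ((J ⊔ zpowers y : Subgroup Γ) : Set Γ) := by
    intro J hCJ x hx hxJ hc
    have hle : (J ⊔ zpowers y).map (MulAut.conj x).toMonoidHom ≤ J ⊔ zpowers y := by
      rw [Subgroup.map_sup]
      refine sup_le ?_ ?_
      · rintro _ ⟨k, hk, rfl⟩
        exact mem_sup_left ((mem_normalizer_iff.1 hxJ k).1 hk)
      · rw [MonoidHom.map_zpowers, zpowers_le]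
        exact mem_coset_sup (hCJ hc)
    have heq : (J ⊔ zpowers y).map (MulAut.conj x).toMonoidHom = J ⊔ zpowers y :=
      Subgroup.eq_of_le_of_card_ge hle
        (le_of_eq (Subgroup.card_map_of_injective (MulAut.conj x).injective).symm)
    refine mem_normalizer_iff.2 fun z => ⟨fun hz => hle ⟨z, hz, rfl⟩, fun hz => ?_⟩
    obtain ⟨w, hw, hwe⟩ := heq.ge hz
    change x * w * x⁻¹ = x * z * x⁻¹ at hwe
    rwa [mul_left_cancel (mul_right_cancel hwe)] at hw
  have hres : ∀ η : IrrCharacter (K ⊔ S ⊔ zpowers y : Subgroup Γ), Restr hML η ξ →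
      ∃ η₀ : IrrCharacter (K ⊔ zpowers y : Subgroup Γ), Restr hL₀ η η₀ ∧ Restr hKL₀ η₀ θ :=
    fun η hη => Restr.exists_mid hKL₀ hL₀ (hη.trans hξ)
  constructor
  · rintro ⟨η, hη, hηf⟩ x hx hc
    obtain ⟨η₀, hηη₀, hη₀⟩ := hres η hη
    have hfix₀ : FixBy x η₀ := fixBy_restr hηη₀ (hηf x hx (hKM (hCK hc)))
    have hle : K ⊔ zpowers y ≤ K ⊔ (C ⊔ (zpowers x ⊔ zpowers y)) :=
      sup_le_sup_left (le_sup_right.trans le_sup_right) K
    have hxn := hnorm K hCK x hx (hHK hx) hc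
    have hCn : C ≤ K ⊔ zpowers y := hCK.trans le_sup_left
    obtain ⟨χ, hχ⟩ := ext_cyclic hle
      (sup_le (hKL₀.trans le_normalizer) (sup_le (hCn.trans le_normalizer)
        (sup_le (zpowers_le.2 hxn) ((le_sup_right : zpowers y ≤ _).trans le_normalizer))))
      x (mem_sup_right (mem_sup_right (mem_sup_left (mem_zpowers x))))
      (sup_le (hKL₀.trans le_sup_left) (sup_le (hCn.trans le_sup_left)
        (sup_le le_sup_right ((le_sup_right : zpowers y ≤ _).trans le_sup_left)))) hfix₀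
    exact ⟨χ, hχ.trans hη₀⟩
  · intro hext
    obtain ⟨η, hη⟩ := ext_cyclic hML (sup_le le_normalizer (zpowers_le.2 (hnM y hy))) y
      (mem_sup_right (mem_zpowers y)) le_rfl (hfix y hy)
    refine ⟨η, hη, fun x hx hxM => ?_⟩
    have hc : x * y * x⁻¹ * y⁻¹ ∈ C :=
      hM _ (mul_mem (mul_mem (mul_mem hx hy) (inv_mem hx)) (inv_mem hy)) hxM
    obtain ⟨χ, hχ⟩ := hext x hx hc
    have hle : K ⊔ zpowers y ≤ K ⊔ (C ⊔ (zpowers x ⊔ zpowers y)) :=
      sup_le_sup_left (le_sup_right.trans le_sup_right) K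
    obtain ⟨η₁, hχη₁, hη₁⟩ := Restr.exists_mid hKL₀ hle (θ := θ) hχ
    have hf₁ : FixBy x η₁ := fixBy_restr hχη₁
      (fixBy_of_mem (mem_sup_right (mem_sup_right (mem_sup_left (mem_zpowers x)))) χ)
    obtain ⟨η₀, hηη₀, hη₀⟩ := hres η hη
    obtain ⟨f, hfK, hfe⟩ := exists_twist hab₀ hη₁ (χ := η₀)
      (by rw [hη₀.rmult_one]; exact one_ne_zero)
    have hxn₀ := hnorm K hCK x hx (hHK hx) hc
    have hxn := hnorm (K ⊔ S) (hCK.trans hKM) x hx (hnM x hx) hc
    have hf₀ : FixBy x η₀ := by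
      rw [hfe]
      intro k k' he
      rw [twist_coe, twist_coe, hf₁ k k' he]
      congr 2
      have hhom : f.comp (cjE _ hxn₀).toMonoidHom = f := by
        refine MonoidHom.ext fun v => ?_
        have hker : K ⊔ zpowers y ≤ ((f.comp (cjE _ hxn₀).toMonoidHom).eqLocus f).map
            (K ⊔ zpowers y : Subgroup Γ).subtype := by
          refine sup_le (fun a ha => ⟨inclusion hKL₀ ⟨a, ha⟩, ?_, rfl⟩)
            (zpowers_le.2 ⟨⟨y, mem_sup_right (mem_zpowers y)⟩, ?_, rfl⟩)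
          · show f (cjE _ hxn₀ (inclusion hKL₀ ⟨a, ha⟩)) = f (inclusion hKL₀ ⟨a, ha⟩)
            rw [hfK, ← hfK ⟨x * a * x⁻¹, (mem_normalizer_iff.1 (hHK hx) a).1 ha⟩]
            rfl
          · show f (cjE _ hxn₀ _) = f _
            rw [show cjE _ hxn₀ ⟨y, mem_sup_right (mem_zpowers y)⟩ =
              inclusion hKL₀ (⟨_, hCK hc⟩ : K) * ⟨y, mem_sup_right (mem_zpowers y)⟩ from
              Subtype.ext (by rw [cjE_coe]; simp), map_mul, hfK, one_mul]
        obtain ⟨w, hw, he'⟩ := hker v.2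
        rw [show w = v from Subtype.ext he'] at hw
        exact hw
      rw [show k' = cjE _ hxn₀ k from Subtype.ext he]
      exact DFunLike.congr_fun hhom k
    -- compare on the coset
    have hLn : K ⊔ S ⊔ zpowers y ≤ normalizer ((K ⊔ S : Subgroup Γ) : Set Γ) :=
      sup_le le_normalizer (zpowers_le.2 (hnM y hy))
    have habL : AbMod (K ⊔ S) (K ⊔ S ⊔ zpowers y) := abMod_sup (zpowers_le.2 (hnM y hy))
      fun a ha b hb => by
        obtain ⟨i, rfl⟩ := mem_zpowers_iff.1 ha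
        obtain ⟨j, rfl⟩ := mem_zpowers_iff.1 hb
        rw [show y ^ i * y ^ j * (y ^ i)⁻¹ * (y ^ j)⁻¹ = 1 by group]
        exact one_mem _
    have hcr : Restr hML (cjI hxn η) ξ := fun k => by
      rw [cjI_coe, ← hfix x hx k ⟨_, (mem_normalizer_iff.1 (hnM x hx) k).1 k.2⟩ rfl, ← hη]
      rfl
    obtain ⟨g, hgM, hge⟩ := exists_twist habL hη (χ := cjI hxn η)
      (by rw [hcr.rmult_one]; exact one_ne_zero)
    obtain ⟨k, hk⟩ := exists_ne_zero_coset (hKL := hKL₀)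
      (sup_le le_normalizer ((zpowers_le.2 hy).trans hHK)) hη₀ ⟨y, mem_sup_right (mem_zpowers y)⟩
    set u : (K ⊔ zpowers y : Subgroup Γ) :=
      inclusion hKL₀ k * ⟨y, mem_sup_right (mem_zpowers y)⟩
    have h1 := congrFun (congrArg Subtype.val hge) (inclusion hL₀ u)
    rw [twist_coe, cjI_coe, hηη₀ u,
      show cjE _ hxn (inclusion hL₀ u) = inclusion hL₀ (cjE _ hxn₀ u) from Subtype.ext rfl,
      hηη₀, hf₀ u _ rfl] at h1
    have h2 : g (inclusion hL₀ u) = 1 := by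
      refine Units.ext (mul_right_cancel₀ hk ?_)
      rw [Units.val_one, one_mul]
      exact h1.symm
    rw [show inclusion hL₀ u = inclusion hML (inclusion hKM k) *
      ⟨y, mem_sup_right (mem_zpowers y)⟩ from rfl, map_mul, hgM, one_mul] at h2
    have hg1 : g = 1 := by
      refine MonoidHom.ext fun v => ?_
      have hker : K ⊔ S ⊔ zpowers y ≤ g.ker.map (K ⊔ S ⊔ zpowers y : Subgroup Γ).subtype :=
        sup_le (fun a ha => ⟨inclusion hML ⟨a, ha⟩, hgM _, rfl⟩) (zpowers_le.2 ⟨_, h2, rfl⟩)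
      obtain ⟨w, hw, he⟩ := hker v.2
      rwa [show w = v from Subtype.ext he] at hw
    refine (fixBy_iff hxn η).2 ?_
    rw [hge, hg1]
    exact Subtype.ext (funext fun v => by simp [twist_coe])

end KS

end Cfsg.Agent.RelMcKay
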