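import Cfsg.Agent.RelMcKay.Count
import Cfsg.Agent.RelMcKay.PExt
import Cfsg.Agent.CharDeep.Ratio

/-!
# The central case of the relative count
-/

set_option autoImplicit false
set_option linter.style.haveILetI false
set_option linter.unusedSectionVars false

open scoped ComplexConjugate
open Cfsg.Agent.Char

namespace Cfsg.Agent.RelMcKay

open Subgroup
open Cfsg.Agent.GlauberCorr

universe u

variable {Γ : Type u} [Group Γ] [Finite Γ] {p : ℕ} [hp : Fact p.Prime]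

/-- The condition for `ch θ l` to lie over a linear character of a central subgroup. -/
theorem KS.over_iff {K S : Subgroup Γ} (d : KS p K S) {Z : Subgroup Γ} (hZc : Z ≤ center Γ)
    (hZ : ∀ z ∈ Z, ∃ a ∈ Z ⊓ K, ∃ b ∈ Z ⊓ S, z = a * b) (hZM : Z ≤ K ⊔ S)
    (μ : Z →* ℂˣ) (θ : IrrCharacter K) (h : ∀ s ∈ S, FixBy s θ) (l : S →* ℂˣ) :
    rmult hZM (d.ch θ h l) (linIrr μ) ≠ 0 ↔
      (∀ (a : Z) (ha : (a : Γ) ∈ K), (θ : K → ℂ) ⟨a, ha⟩ = (μ a : ℂ) * (θ : K → ℂ) 1) ∧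
      ∀ (b : Z) (hb : (b : Γ) ∈ S), l ⟨b, hb⟩ = μ b := by
  obtain ⟨c, hc, hcμ⟩ := exists_central_scalar hZM hZc (d.ch θ h l)
  obtain ⟨n, hn0, hn⟩ := irr_one_pos θ.2
  have h1 : (d.ch θ h l : (K ⊔ S : Subgroup Γ) → ℂ) 1 = n := (d.ch_restr θ h l 1).trans hn
  have hcan : (d.can θ h : (K ⊔ S : Subgroup Γ) → ℂ) 1 = n := (d.can_restr θ h 1).trans hn
  have hn' : (n : ℂ) ≠ 0 := Nat.cast_ne_zero.2 hn0.ne'
  have hA : ∀ (a : Z) (ha : (a : Γ) ∈ K), (θ : K → ℂ) ⟨a, ha⟩ = (c a : ℂ) * n := by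
    intro a ha
    rw [← d.ch_restr θ h l ⟨a, ha⟩, ← h1, ← hc, mul_one]
    exact irr_apply_congr _ rfl
  have hB : ∀ (b : Z) (hb : (b : Γ) ∈ S), (c b : ℂ) = (l ⟨b, hb⟩ : ℂ) := by
    intro b hb
    refine mul_right_cancel₀ hn' ?_
    have h2 := hc b 1
    rw [h1] at h2
    rw [← h2, show inclusion hZM b = inclusion le_sup_right (⟨b, hb⟩ : S) from Subtype.ext rfl,
      KS.ch, twist_coe, mul_one, d.lift_S,
      ← mul_one (inclusion (le_sup_right : S ≤ K ⊔ S) (⟨b, hb⟩ : S)),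
      show inclusion (le_sup_right : S ≤ K ⊔ S) (⟨b, hb⟩ : S) = ⟨b, mem_sup_right hb⟩ from rfl,
      d.can_mul_central θ h hb (hZc b.2), hcan]
  rw [hcμ μ]
  constructor
  · rintro rfl
    exact ⟨fun a ha => by rw [hA a ha, hn], fun b hb => Units.ext (hB b hb).symm⟩
  · rintro ⟨ha', hb'⟩
    refine MonoidHom.ext fun z => ?_
    obtain ⟨a, ha, b, hb, he⟩ := hZ z z.2
    rw [show z = (⟨a, ha.1⟩ : Z) * ⟨b, hb.1⟩ from Subtype.ext he, map_mul, map_mul]
    congr 1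
    · refine Units.ext (mul_right_cancel₀ hn' ?_)
      rw [← hA ⟨a, ha.1⟩ ha.2, ha' ⟨a, ha.1⟩ ha.2, hn]
    · exact Units.ext ((hB ⟨b, hb.1⟩ hb.2).trans (congrArg Units.val (hb' ⟨b, hb.1⟩ hb.2)))

theorem abMod_pair {C : Subgroup Γ} {x y : Γ} (hx : x ∈ normalizer (C : Set Γ))
    (hy : y ∈ normalizer (C : Set Γ)) (h : x * y * x⁻¹ * y⁻¹ ∈ C) :
    AbMod C (C ⊔ (zpowers x ⊔ zpowers y)) := by
  have hn : zpowers x ⊔ zpowers y ≤ normalizer (C : Set Γ) :=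
    sup_le (zpowers_le.2 hx) (zpowers_le.2 hy)
  refine abMod_sup hn fun a ha b hb => ?_
  haveI : (C.subgroupOf (normalizer (C : Set Γ))).Normal := normal_in_normalizer
  let π := QuotientGroup.mk' (C.subgroupOf (normalizer (C : Set Γ)))
  let X := π ⟨x, hx⟩
  let Y := π ⟨y, hy⟩
  have hXY : X * Y = Y * X := by
    rw [← mul_inv_eq_one, show X * Y * (Y * X)⁻¹ = X * Y * X⁻¹ * Y⁻¹ by group, ← map_inv,
      ← map_inv, ← map_mul, ← map_mul, ← map_mul]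
    exact (QuotientGroup.eq_one_iff _).2 h
  have himg : ∀ c (hc : c ∈ zpowers x ⊔ zpowers y), π ⟨c, hn hc⟩ ∈ closure ({X, Y} : Set _) := by
    intro c hc
    have hle : zpowers x ⊔ zpowers y ≤
        ((closure ({X, Y} : Set _)).comap π).map (normalizer (C : Set Γ)).subtype :=
      sup_le (zpowers_le.2 ⟨⟨x, hx⟩, subset_closure (Set.mem_insert _ _), rfl⟩)
        (zpowers_le.2 ⟨⟨y, hy⟩, subset_closure (Set.mem_insert_of_mem _ rfl), rfl⟩)
    obtain ⟨w, hw, he⟩ := hle hc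
    rwa [show w = ⟨c, hn hc⟩ from Subtype.ext he] at hw
  have hcomm : ∀ s ∈ closure ({X, Y} : Set _), ∀ t ∈ closure ({X, Y} : Set _),
      s * t = t * s := by
    have h2 : closure ({X, Y} : Set _) ≤ centralizer ({X, Y} : Set _) := by
      rw [closure_le]
      rintro s (rfl | rfl) <;> refine mem_centralizer_iff.2 ?_ <;> rintro t (rfl | rfl) <;>
        first | rfl | exact hXY | exact hXY.symm
    intro s hs t ht
    have h3 : closure ({X, Y} : Set _) ≤ centralizer ({s} : Set _) := by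
      rw [closure_le]
      intro u hu
      exact mem_centralizer_singleton_iff.2 (mem_centralizer_iff.1 (h2 hs) u hu)
    exact (mem_centralizer_singleton_iff.1 (h3 ht)).symm
  have h4 := hcomm _ (himg a ha) _ (himg b hb)
  have h5 : π (⟨a, hn ha⟩ * ⟨b, hn hb⟩ * ⟨a, hn ha⟩⁻¹ * (⟨b, hn hb⟩ : normalizer (C : Set Γ))⁻¹)
      = 1 := by
    rw [map_mul, map_mul, map_mul, map_inv, map_inv, h4]
    group
  exact (QuotientGroup.eq_one_iff (N := C.subgroupOf (normalizer (C : Set Γ))) _).1 h5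

theorem not_dvd_degree_over {R U S : Subgroup Γ} (hRU : R ≤ U)
    (hn : U ≤ normalizer (R : Set Γ)) (hidx : ¬ p ∣ S.relIndex U) (hSR : S ≤ R)
    {θ : IrrCharacter R} (hθ : ¬ p ∣ Cfsg.charDegree (θ : R → ℂ)) {χ : IrrCharacter U}
    (h : rmult hRU χ θ ≠ 0) : ¬ p ∣ Cfsg.charDegree (χ : U → ℂ) := by
  classical
  letI := Fintype.ofFinite U
  let N := R.subgroupOf U
  haveI : N.Normal := normal_subgroupOf_of_le_normalizer hn
  letI := Fintype.ofFinite N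
  let e : N ≃* R := subgroupOfEquivOfLe hRU
  obtain ⟨a, -, ha⟩ := irr_one_pos χ.2
  obtain ⟨b, -, hb⟩ := irr_one_pos θ.2
  rw [charDegree_eq_of_nat hb] at hθ
  rw [charDegree_eq_of_nat ha]
  obtain ⟨hd, hdvd⟩ := CharDeep.degree_ratio_dvd_index N χ.2 (ϑ := (irrComap e θ : N → ℂ))
    (irrComap e θ).2 (by
      rw [show (fun n : N => (χ : U → ℂ) n) = fun n : N => (χ : U → ℂ) (N.subtype n) from rfl,
        classInner_comp_eq_homMult, show N.subtype = (inclusion hRU).comp e.toMonoidHom from rfl,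
        homMult_comp_equiv]
      exact_mod_cast h)
    ha (by rw [irrComap_coe, map_one, hb])
  intro hpa
  have hR : ¬ p ∣ R.relIndex U := fun h => hidx (by
    rw [← relIndex_mul_relIndex S R U hSR hRU]; exact h.mul_left _)
  rw [← Nat.div_mul_cancel hd] at hpa
  rcases hp.out.dvd_mul.1 hpa with h1 | h1
  · exact hR (h1.trans hdvd)
  · exact hθ h1

theorem orb_eq {R R' U U' S : Subgroup Γ} {θ : IrrCharacter R} {θ' : IrrCharacter R'}
    (hU : U ⊓ normalizer (S : Set Γ) = U' ⊓ normalizer (S : Set Γ))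
    (h : ∀ g ∈ U ⊓ normalizer (S : Set Γ), g ∈ stab θ ↔ g ∈ stab θ') :
    orb U S θ = orb U' S θ' := by
  unfold orb
  rw [← inf_relIndex_right, ← inf_relIndex_right (stab θ'), ← hU]
  congr 1
  ext g
  exact ⟨fun hg => ⟨(h g hg.2).1 hg.1, hg.2⟩, fun hg => ⟨(h g hg.2).2 hg.1, hg.2⟩⟩

/-- The normal `p'`-Hall subgroup of `Kh`. -/
theorem exists_hall {Z Kh S : Subgroup Γ} (hZc : Z ≤ center Γ) (hZK : Z ≤ Kh)
    [hKn : Kh.Normal] (hKp : ¬ p ∣ Z.relIndex Kh) (hS : IsSyl p S ⊤) :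
    ∃ K : Subgroup Γ, K.Normal ∧ ¬ p ∣ Nat.card K ∧ K ≤ Kh ∧ Kh ≤ K ⊔ S ∧
      ∀ z ∈ Z, ∃ a ∈ Z ⊓ K, ∃ b ∈ Z ⊓ S, z = a * b := by
  classical
  set Zp := Kh ⊓ S with hZp
  have hZpS : Zp ≤ S := inf_le_right
  have hZpZ : Zp ≤ Z := by
    have h0 : Zp ≤ normalizer (Z : Set Γ) := fun x _ => by
      refine mem_normalizer_iff.2 fun z => ⟨fun hz => ?_, fun hz => ?_⟩
      · rw [mem_center_iff.1 (hZc hz) x, mul_inv_cancel_right]; exact hz
      · rw [show z = x⁻¹ * (x * z * x⁻¹) * x by group,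
          mem_center_iff.1 (hZc hz) x⁻¹, inv_mul_cancel_right]
        exact hz
    obtain ⟨j, hj⟩ := IsPGroup.iff_card.1 (hS.isP.to_le hZpS)
    have h1 : Z.relIndex (Z ⊔ Zp) ∣ p ^ j := by
      rw [relIndex_sup_eq h0, ← hj]; exact relIndex_dvd_card Z Zp
    obtain ⟨i, -, hi⟩ := (Nat.dvd_prime_pow hp.out).1 h1
    rcases Nat.eq_zero_or_pos i with rfl | hi0
    · rw [pow_zero, relIndex_eq_one] at hi
      exact le_sup_right.trans hi
    · refine absurd ((hi ▸ dvd_pow_self p hi0.ne').trans ?_) hKp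
      rw [← relIndex_mul_relIndex Z (Z ⊔ Zp) Kh le_sup_left (sup_le hZK inf_le_left)]
      exact dvd_mul_right _ _
  have hZpc : Zp ≤ center Γ := hZpZ.trans hZc
  haveI : (Zp.subgroupOf Kh).Normal := ⟨fun t ht g => by
    have ht' : (t : Γ) ∈ Zp := ht
    show ((g * t * g⁻¹ : Kh) : Γ) ∈ Zp
    rw [Subgroup.coe_mul, Subgroup.coe_mul, InvMemClass.coe_inv,
      mem_center_iff.1 (hZpc ht') g, mul_inv_cancel_right]
    exact ht'⟩
  have hidx : ¬ p ∣ Zp.relIndex Kh := by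
    intro hd
    apply hS.ndvd
    have h1 := relIndex_mul_relIndex ⊥ Kh (Kh ⊔ S) bot_le le_sup_left
    have h2 := relIndex_mul_relIndex ⊥ S (Kh ⊔ S) bot_le le_sup_right
    have h3 := relIndex_mul_relIndex ⊥ Zp Kh bot_le inf_le_left
    have h4 := relIndex_mul_relIndex ⊥ Zp S bot_le inf_le_right
    rw [relIndex_bot_left, relIndex_bot_left] at h1 h2 h3 h4
    rw [relIndex_sup_eq (show S ≤ normalizer (Kh : Set Γ) from by
      rw [normalizer_eq_top_iff.2 hKn]; exact le_top)] at h1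
    rw [show Zp.relIndex S = Kh.relIndex S from inf_relIndex_right Kh S] at h4
    have h5 : Nat.card S * S.relIndex (Kh ⊔ S) = Nat.card S * Zp.relIndex Kh := by
      rw [h2, ← h1, ← h4, ← h3]; ring
    rw [← Nat.eq_of_mul_eq_mul_left Nat.card_pos h5] at hd
    rw [← relIndex_mul_relIndex S (Kh ⊔ S) ⊤ le_sup_right le_top]
    exact hd.mul_right _
  obtain ⟨F, hF⟩ := exists_right_complement'_of_coprime (N := Zp.subgroupOf Kh) (by
    rw [Nat.card_congr (subgroupOfEquivOfLe inf_le_left).toEquiv]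
    obtain ⟨j, hj⟩ := IsPGroup.iff_card.1 (hS.isP.to_le hZpS)
    rw [hj]
    exact (hp.out.coprime_iff_not_dvd.2 hidx).pow_left j)
  set K := F.map Kh.subtype with hK
  have hKKh : K ≤ Kh := map_subtype_le _
  have hcardK : Nat.card K = Zp.relIndex Kh := by
    rw [hK, card_map_of_injective Kh.subtype_injective, relIndex, hF.symm.index_eq_card]
  have hKcop : ¬ p ∣ Nat.card K := hcardK ▸ hidx
  have hdec : ∀ e ∈ Kh, ∃ t ∈ Zp, ∃ k ∈ K, t * k = e := by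
    intro e he
    have h : (⟨e, he⟩ : Kh) ∈ Zp.subgroupOf Kh ⊔ F := hF.sup_eq_top ▸ Subgroup.mem_top _
    rw [mem_sup_of_normal_left] at h
    obtain ⟨t, ht, g, hg, htg⟩ := h
    exact ⟨t, ht, g, ⟨g, hg, rfl⟩, congrArg Subtype.val htg⟩
  haveI hKnorm : K.Normal := ⟨fun k hk x => by
    obtain ⟨t, ht, g, hg, e⟩ := hdec _ (hKn.conj_mem k (hKKh hk) x)
    have hpow : ∀ y ∈ K, y ^ Nat.card K = 1 := fun y hy =>
      congrArg Subtype.val (pow_card_eq_one' (x := (⟨y, hy⟩ : K)))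
    have h1 : t ^ Nat.card K = 1 := by
      have h2 : (t * g) ^ Nat.card K = 1 := by
        rw [e, conj_pow, hpow k hk, mul_one, mul_inv_cancel]
      rwa [Commute.mul_pow (show Commute t g from (mem_center_iff.1 (hZpc ht) g).symm),
        hpow g hg, mul_one] at h2
    obtain ⟨j, hj⟩ := hS.isP ⟨t, hZpS ht⟩
    have h2 : t ^ p ^ j = 1 := congrArg Subtype.val hj
    have h3 : orderOf t = 1 := Nat.eq_one_of_dvd_coprimes
      ((hp.out.coprime_iff_not_dvd.2 hKcop).pow_left j)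
      (orderOf_dvd_of_pow_eq_one h2) (orderOf_dvd_of_pow_eq_one h1)
    rw [← e, orderOf_eq_one_iff.1 h3, one_mul]
    exact hg⟩
  refine ⟨K, hKnorm, hKcop, hKKh, fun e he => ?_, ?_⟩
  · obtain ⟨t, ht, k, hk, rfl⟩ := hdec e he
    exact mul_mem (mem_sup_right (hZpS ht)) (mem_sup_left hk)
  · intro z hz
    obtain ⟨t, ht, k, hk, he⟩ := hdec z (hZK hz)
    have hk' : k ∈ Z := by
      have h1 := Z.mul_mem (Z.inv_mem (hZpZ ht)) hz
      rwa [← he, inv_mul_cancel_left] at h1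
    exact ⟨k, ⟨hk', hk⟩, t, ⟨hZpZ ht, hZpS ht⟩,
      by rw [← he, mem_center_iff.1 (hZpc ht) k]⟩

/-- Correspondents have the same scalars on a central subgroup. -/
theorem scalar_star {Z K C : Subgroup Γ} (hZc : Z ≤ center Γ) (hCK : C ≤ K)
    (hZC : ∀ a ∈ Z, a ∈ K → a ∈ C) (μ : Z →* ℂˣ) (θ : IrrCharacter K) (θs : IrrCharacter C)
    (hne : rmult hCK θ θs ≠ 0) :
    (∀ (a : Z) (ha : (a : Γ) ∈ K), (θ : K → ℂ) ⟨a, ha⟩ = (μ a : ℂ) * (θ : K → ℂ) 1) ↔
      ∀ (a : Z) (ha : (a : Γ) ∈ C), (θs : C → ℂ) ⟨a, ha⟩ = (μ a : ℂ) * (θs : C → ℂ) 1 := by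
  let Z₀ := Z ⊓ K
  have hZ₀C : Z₀ ≤ C := fun a ha => hZC a ha.1 ha.2
  obtain ⟨c', hc', hcμ'⟩ := exists_central_scalar hZ₀C (inf_le_left.trans hZc) θs
  obtain ⟨c, hc, hcμ⟩ := exists_central_scalar (hZ₀C.trans hCK) (inf_le_left.trans hZc) θ
  obtain rfl : c = c' := (hcμ c').1 (rmult_ne_zero_trans hZ₀C hCK hne ((hcμ' c').2 rfl))
  obtain ⟨n, hn0, hn⟩ := irr_one_pos θ.2
  obtain ⟨m, hm0, hm⟩ := irr_one_pos θs.2
  constructor
  · intro ha a haC
    have h1 := hc ⟨a, a.2, hCK haC⟩ 1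
    have h2 := hc' ⟨a, a.2, hCK haC⟩ 1
    rw [mul_one] at h1 h2
    have h3 := ha a (hCK haC)
    rw [show (⟨a, hCK haC⟩ : K) = inclusion (hZ₀C.trans hCK) ⟨a, a.2, hCK haC⟩ from rfl, h1,
      hn] at h3
    have h4 := mul_right_cancel₀ (Nat.cast_ne_zero.2 hn0.ne') h3
    rw [show (⟨a, haC⟩ : C) = inclusion hZ₀C ⟨a, a.2, hCK haC⟩ from rfl, h2, h4]
  · intro ha a haK
    have h1 := hc ⟨a, a.2, haK⟩ 1
    have h2 := hc' ⟨a, a.2, haK⟩ 1
    rw [mul_one] at h1 h2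
    have h3 := ha a (hZ₀C (Subgroup.mem_inf.2 ⟨a.2, haK⟩))
    rw [show (⟨a, hZ₀C (Subgroup.mem_inf.2 ⟨a.2, haK⟩)⟩ : C) = inclusion hZ₀C ⟨a, a.2, haK⟩ from rfl, h2,
      hm] at h3
    have h4 := mul_right_cancel₀ (Nat.cast_ne_zero.2 hm0.ne') h3
    rw [show (⟨a, haK⟩ : K) = inclusion (hZ₀C.trans hCK) ⟨a, a.2, haK⟩ from rfl, h1, h4]

theorem ext_sup_iff {C X : Subgroup Γ} (h : C ≤ X) (θ : IrrCharacter C) :
    Ext (le_sup_left : C ≤ C ⊔ X) θ ↔ Ext h θ :=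
  ⟨fun e => e.congr rfl (sup_eq_right.2 h) θ fun _ _ ha => irr_apply_congr θ ha,
    fun e => e.congr rfl (sup_eq_right.2 h).symm θ fun _ _ ha => irr_apply_congr θ ha⟩

/-- The two Clifford counts agree. -/
theorem term_eq {K C S : Subgroup Γ} (hd : KS p K S) (hdC : KS p C S) (hKnorm : K.Normal)
    (hM : (K ⊔ S).Normal) (hS : IsSyl p S ⊤) (hSN : IsSyl p S (normalizer (S : Set Γ)))
    (hCK : C ≤ K) (hfixC : ∀ k, k ∈ C ↔ k ∈ K ∧ ∀ s ∈ S, s * k * s⁻¹ = k)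
    (hnC : ∀ g ∈ normalizer (S : Set Γ), g ∈ normalizer (C : Set Γ))
    (hMN : ∀ g ∈ K ⊔ S, g ∈ normalizer (S : Set Γ) → g ∈ C ⊔ S)
    (hM'N : C ⊔ S ≤ normalizer (S : Set Γ))
    (θ : IrrCharacter K) (hθ : ∀ s ∈ S, FixBy s θ) (θs : IrrCharacter C)
    (hm : ¬ p ∣ rmult hCK θ θs) (ξ : IrrCharacter (K ⊔ S : Subgroup Γ))
    (hξ : Restr le_sup_left ξ θ) (hξd : ¬ p ∣ Cfsg.charDegree (ξ : (K ⊔ S : Subgroup Γ) → ℂ))
    (ζ : IrrCharacter (C ⊔ S : Subgroup Γ))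
    (hζ : Restr le_sup_left ζ θs) (hζd : ¬ p ∣ Cfsg.charDegree (ζ : (C ⊔ S : Subgroup Γ) → ℂ))
    (hstab : ∀ g ∈ normalizer (S : Set Γ), (g ∈ stab ξ ↔ g ∈ stab ζ)) :
    cnt p (le_top : K ⊔ S ≤ ⊤) ξ = cnt p hM'N ζ := by
  classical
  have hKcop : ¬ p ∣ Nat.card K := hd.hK
  have hnK : ∀ g : Γ, g ∈ normalizer (K : Set Γ) := fun g => by
    rw [normalizer_eq_top_iff.2 hKnorm]; exact Subgroup.mem_top g
  have hnM : (⊤ : Subgroup Γ) ≤ normalizer ((K ⊔ S : Subgroup Γ) : Set Γ) := by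
    rw [normalizer_eq_top_iff.2 hM]
  set N := normalizer (S : Set Γ) with hN
  have hnM' : N ≤ normalizer ((C ⊔ S : Subgroup Γ) : Set Γ) := fun g hg =>
    KS.mem_norm_sup (hnC g hg) hg
  set T := ⊤ ⊓ stab ξ with hT
  set T' := N ⊓ stab ζ with hT'
  have hMT : K ⊔ S ≤ T := le_inf le_top (le_stab_self ξ)
  have hM'T' : C ⊔ S ≤ T' := le_inf hM'N (le_stab_self ζ)
  have hST : S ≤ T := le_sup_right.trans hMT
  have hST' : S ≤ T' := le_sup_right.trans hM'T'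
  have hidxT : ¬ p ∣ T.relIndex ⊤ := fun h => hS.ndvd (by
    rw [← relIndex_mul_relIndex S T ⊤ hST le_top]; exact h.mul_left _)
  have hidxT' : ¬ p ∣ T'.relIndex N := fun h => hSN.ndvd (by
    rw [← relIndex_mul_relIndex S T' N hST' inf_le_left]; exact h.mul_left _)
  rw [cnt_stab le_top hnM ξ hT hMT hidxT, cnt_stab hM'N hnM' ζ hT' hM'T' hidxT']
  have hTn : T ≤ normalizer ((K ⊔ S : Subgroup Γ) : Set Γ) := le_top.trans hnM
  have hT'n : T' ≤ normalizer ((C ⊔ S : Subgroup Γ) : Set Γ) := inf_le_left.trans hnM'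
  have hST'idx : ¬ p ∣ S.relIndex T' := fun h => hSN.ndvd (by
    rw [← relIndex_mul_relIndex S T' N hST' inf_le_left]; exact h.mul_right _)
  have hSTidx : ¬ p ∣ S.relIndex T := fun h => hS.ndvd (by
    rw [← relIndex_mul_relIndex S T ⊤ hST le_top]; exact h.mul_right _)
  have ecnt : cnt p hMT ξ = Nat.card {χ : IrrCharacter T // rmult hMT χ ξ ≠ 0} := by
    unfold cnt
    exact Nat.card_congr (Equiv.subtypeEquivRight fun χ => ⟨fun h => h.2, fun h =>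
      ⟨not_dvd_degree_over hMT hTn hSTidx le_sup_right hξd h, h⟩⟩)
  have ecnt' : cnt p hM'T' ζ = Nat.card {χ : IrrCharacter T' // rmult hM'T' χ ζ ≠ 0} := by
    unfold cnt
    exact Nat.card_congr (Equiv.subtypeEquivRight fun χ => ⟨fun h => h.2, fun h =>
      ⟨not_dvd_degree_over hM'T' hT'n hST'idx le_sup_right
        hζd h, h⟩⟩)
  -- the complement
  haveI : (S.subgroupOf T').Normal := normal_subgroupOf_of_le_normalizer inf_le_left
  obtain ⟨H₀, hH₀⟩ := exists_right_complement'_of_coprime (N := S.subgroupOf T') (by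
    rw [Nat.card_congr (subgroupOfEquivOfLe hST').toEquiv]
    obtain ⟨j, hj⟩ := IsPGroup.iff_card.1 hS.isP
    rw [hj]
    exact (hp.out.coprime_iff_not_dvd.2 hST'idx).pow_left j)
  set H := H₀.map T'.subtype with hH
  have hHT' : H ≤ T' := map_subtype_le _
  have hHN : H ≤ N := hHT'.trans inf_le_left
  have hcardH : Nat.card H = S.relIndex T' := by
    rw [hH, card_map_of_injective T'.subtype_injective, relIndex, hH₀.symm.index_eq_card]
  have hHcop : ¬ p ∣ Nat.card H := hcardH ▸ hST'idx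
  have hgen' : T' ≤ S ⊔ H := fun t ht => by
    have h : (⟨t, ht⟩ : T') ∈ S.subgroupOf T' ⊔ H₀ := hH₀.sup_eq_top ▸ Subgroup.mem_top _
    rw [mem_sup_of_normal_left] at h
    obtain ⟨a, ha, b, hb, he⟩ := h
    rw [show t = (a : Γ) * b from (congrArg Subtype.val he).symm]
    exact mul_mem (mem_sup_left ha) (mem_sup_right ⟨b, hb, rfl⟩)
  have hCH : C ≤ H := by
    have hCnH : H ≤ normalizer (C : Set Γ) := fun h hh => hnC h (hHN hh)
    have hle : C ⊔ H ≤ T' := sup_le (le_sup_left.trans hM'T') hHT'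
    have hcop : ¬ p ∣ Nat.card (C ⊔ H : Subgroup Γ) :=
      not_dvd_card_sup hCnH (fun h => hKcop (h.trans (card_dvd_of_le hCK))) hHcop
    have hdvd : Nat.card (C ⊔ H : Subgroup Γ) ∣ S.relIndex T' := by
      have h1 := card_dvd_of_le hle
      have h2 := relIndex_mul_relIndex ⊥ S T' bot_le hST'
      rw [relIndex_bot_left, relIndex_bot_left] at h2
      rw [← h2] at h1
      obtain ⟨j, hj⟩ := IsPGroup.iff_card.1 hS.isP
      rw [hj] at h1
      exact ((hp.out.coprime_iff_not_dvd.2 hcop).pow_left j).symm.dvd_of_dvd_mul_left h1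
    have heq : H = C ⊔ H := Subgroup.eq_of_le_of_card_ge le_sup_right
      (hcardH ▸ Nat.le_of_dvd (hcardH ▸ Nat.card_pos) hdvd)
    exact heq ▸ le_sup_left
  have hHM : ∀ z ∈ H, z ∈ C ⊔ S → z ∈ C := by
    intro z hz hzM
    obtain ⟨c, s, he⟩ := hdC.exists_decomp ⟨z, hzM⟩
    change z = c * s at he
    have hsH : (s : Γ) ∈ H := by
      have h1 := H.mul_mem (H.inv_mem (hCH c.2)) hz
      rwa [he, inv_mul_cancel_left] at h1
    have hcop : (Nat.card S).Coprime (Nat.card H) := by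
      obtain ⟨j, hj⟩ := IsPGroup.iff_card.1 hS.isP
      rw [hj]
      exact (hp.out.coprime_iff_not_dvd.2 hHcop).pow_left j
    have h2 : (s : Γ) = 1 :=
      (Subgroup.inf_eq_bot_of_coprime hcop).le (Subgroup.mem_inf.2 ⟨s.2, hsH⟩)
    rw [he, h2, mul_one]
    exact c.2
  have hHM2 : ∀ z ∈ H, z ∈ K ⊔ S → z ∈ C := fun z hz hzM => hHM z hz (hMN z hzM (hHN hz))
  have hHT : H ≤ T := fun h hh => ⟨Subgroup.mem_top h, (hstab h (hHN hh)).2 (hHT' hh).2⟩
  have hgenT : T ≤ K ⊔ S ⊔ H := by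
    intro t ht
    -- Frattini
    let S' := S.map (MulAut.conj t).toMonoidHom
    have hS'M : S' ≤ (K ⊔ S) := by
      rintro _ ⟨s, hs, rfl⟩
      exact hM.conj_mem s (mem_sup_right hs) t
    have hsylM : IsSyl p S (K ⊔ S) :=
      { le := le_sup_right, isP := hS.isP
        ndvd := fun h => hS.ndvd (by
          rw [← relIndex_mul_relIndex S (K ⊔ S) ⊤ le_sup_right le_top]; exact h.mul_right _) }
    have hsylM' : IsSyl p S' (K ⊔ S) :=
      { le := hS'M, isP := hS.isP.map _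
        ndvd := by
          have hcard : Nat.card S' = Nat.card S :=
            Subgroup.card_map_of_injective (MulAut.conj t).injective
          have h1 := relIndex_mul_relIndex ⊥ S' (K ⊔ S) bot_le hS'M
          have h2 := relIndex_mul_relIndex ⊥ S (K ⊔ S) bot_le le_sup_right
          rw [relIndex_bot_left, relIndex_bot_left] at h1 h2
          rw [hcard] at h1
          rw [Nat.eq_of_mul_eq_mul_left Nat.card_pos (h1.trans h2.symm)]
          exact hsylM.ndvd }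
    obtain ⟨m, hm, hms⟩ := hsylM.exists_conj hsylM'
    have hn : m⁻¹ * t ∈ N := by
      refine mem_normalizer_iff.2 fun x => ?_
      rw [show m⁻¹ * t * x * (m⁻¹ * t)⁻¹ = m⁻¹ * (t * x * t⁻¹) * m by group, ← hms]
      refine ⟨fun hx => ⟨x, hx, rfl⟩, ?_⟩
      rintro ⟨y, hy, he⟩
      change t * y * t⁻¹ = t * x * t⁻¹ at he
      rwa [mul_left_cancel (mul_right_cancel he)] at hy
    have hnT : m⁻¹ * t ∈ stab ξ := (stab ξ).mul_mem ((stab ξ).inv_mem (le_stab_self ξ hm)) ht.2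
    have h1 : m⁻¹ * t ∈ T' := ⟨hn, (hstab _ hn).1 hnT⟩
    have h2 : S ⊔ H ≤ (K ⊔ S) ⊔ H := sup_le_sup_right le_sup_right H
    rw [show t = m * (m⁻¹ * t) by group]
    exact mul_mem (mem_sup_left hm) (h2 (hgen' h1))
  rw [ecnt, ecnt',
    card_over_eq hMT hTn hHT (fun g hg => hg.2.2) hgenT
      (C := C) (fun z hz => ⟨fun h => mem_sup_left (hCK h), hHM2 z hz⟩),
    card_over_eq hM'T' hT'n hHT' (fun g hg => hg.2.2)
      (hgen'.trans (sup_le_sup_right le_sup_right H))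
      (C := C) (fun z hz => ⟨mem_sup_left, hHM z hz⟩),
    goodClasses_congr fun y hy => ?_]
  rw [hd.good_iff hCK hCH (fun h _ => hnK h) hHN hHM2 θ ξ hξ (fun g hg => (hHT hg).2.2) hy,
    hdC.good_iff le_rfl hCH (fun h hh => hnC h (hHN hh)) hHN hHM θs ζ hζ
      (fun g hg => (hHT' hg).2.2) hy]
  refine forall_congr' fun x => forall_congr' fun hx => forall_congr' fun hc => ?_
  set H' := C ⊔ (zpowers x ⊔ zpowers y) with hH'
  have hH'H : H' ≤ H := sup_le hCH (sup_le (zpowers_le.2 hx) (zpowers_le.2 hy))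
  have dK : KData p S H' K C :=
    { hS := hS.isP, hK := hKcop
      hH := fun h => hHcop (h.trans (card_dvd_of_le hH'H))
      normS := hH'H.trans hHN
      SnormK := fun s _ => hnK s, HnormK := fun s _ => hnK s
      ab := abMod_pair (hnC x (hHN hx)) (hnC y (hHN hy)) hc
      CH := le_sup_left
      fix := hfixC
      inter := fun z hz => hHM2 z (hH'H hz.1) (mem_sup_left hz.2) }
  have hfθ : ∀ g ∈ H', FixBy g θ := fun g hg =>
    fixBy_restr hξ (hHT (hH'H hg)).2.2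
  rw [key (Nat.card S) dK ⊥ bot_le (fun s _ => by
      rw [normalizer_eq_top_iff.2 inferInstance]; exact Subgroup.mem_top s)
    (fun s _ => by rw [normalizer_eq_top_iff.2 inferInstance]; exact Subgroup.mem_top s)
    (fun s hs k _ => by rw [mem_bot.1 hs]; group) (relIndex_bot_left _) θ hθ hfθ θs
    hm]
  exact (ext_sup_iff le_sup_left θs).symm

/-- The central case: `K S` is normal. -/
theorem central_case {Z Kh S : Subgroup Γ} (hZc : Z ≤ center Γ) (hZK : Z ≤ Kh)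
    [hKn : Kh.Normal] (hKp : ¬ p ∣ Z.relIndex Kh) (hS : IsSyl p S ⊤) (hMn : (Kh ⊔ S).Normal)
    (μ : Z →* ℂˣ) (hZN : Z ≤ normalizer (S : Set Γ)) :
    cnt p (le_top : Z ≤ ⊤) (linIrr μ) = cnt p hZN (linIrr μ) := by
  classical
  obtain ⟨K, hKnorm, hKcop, hKKh, hKhM, hZdec⟩ := exists_hall hZc hZK hKp hS
  have hnK : ∀ g : Γ, g ∈ normalizer (K : Set Γ) := fun g => by
    rw [normalizer_eq_top_iff.2 hKnorm]; exact Subgroup.mem_top g
  have hd : KS p K S := ⟨hKcop, hS.isP, fun s _ => hnK s⟩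
  have hMeq : Kh ⊔ S = K ⊔ S := le_antisymm (sup_le hKhM le_sup_right) (sup_le_sup_right hKKh S)
  haveI hM : (K ⊔ S).Normal := hMeq ▸ hMn
  have hnM : (⊤ : Subgroup Γ) ≤ normalizer ((K ⊔ S : Subgroup Γ) : Set Γ) := by
    rw [normalizer_eq_top_iff.2 hM]
  have hZM : Z ≤ K ⊔ S := hZK.trans hKhM
  -- the fixed points
  set C := K ⊓ centralizer (S : Set Γ) with hC
  have hCK : C ≤ K := inf_le_left
  have hfixC : ∀ k, k ∈ C ↔ k ∈ K ∧ ∀ s ∈ S, s * k * s⁻¹ = k := fun k =>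
    ⟨fun hk => ⟨hk.1, fun s hs => by rw [mem_centralizer_iff.1 hk.2 s hs, mul_inv_cancel_right]⟩,
     fun hk => ⟨hk.1, mem_centralizer_iff.2 fun s hs => by
      calc s * k = s * k * s⁻¹ * s := by group
        _ = k * s := by rw [hk.2 s hs]⟩⟩
  set N := normalizer (S : Set Γ) with hN
  have hCN : C ≤ N := inf_le_right.trans (centralizer_le_normalizer _)
  have hdC : KS p C S := ⟨fun h => hKcop (h.trans (card_dvd_of_le hCK)), hS.isP, fun s hs => by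
    have hc : ∀ c ∈ C, s * c * s⁻¹ = c := fun c hc => ((hfixC c).1 hc).2 s hs
    refine mem_normalizer_iff.2 fun c => ⟨fun h => by rw [hc c h]; exact h, fun h => ?_⟩
    have h1 := ((hfixC _).1 h).2 s⁻¹ (inv_mem hs)
    rw [show s⁻¹ * (s * c * s⁻¹) * s⁻¹⁻¹ = c by group] at h1
    rw [h1]; exact h⟩
  have hnC : ∀ g ∈ N, g ∈ normalizer (C : Set Γ) := by
    have hconj : ∀ g ∈ N, ∀ c ∈ C, g * c * g⁻¹ ∈ C := fun g hg c hc => by
      refine (hfixC _).2 ⟨hKnorm.conj_mem c hc.1 g, fun s hs => ?_⟩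
      have h1 := ((hfixC c).1 hc).2 _ ((mem_normalizer_iff.1 (N.inv_mem hg) s).1 hs)
      calc s * (g * c * g⁻¹) * s⁻¹ = g * (g⁻¹ * s * g⁻¹⁻¹ * c * (g⁻¹ * s * g⁻¹⁻¹)⁻¹) * g⁻¹ := by
            group
        _ = g * c * g⁻¹ := by rw [h1]
    intro g hg
    refine mem_normalizer_iff.2 fun c => ⟨hconj g hg c, fun hc => ?_⟩
    have := hconj g⁻¹ (N.inv_mem hg) _ hc
    simpa [mul_assoc] using this
  have hM'N : C ⊔ S ≤ N := sup_le hCN le_normalizer
  have hnM' : N ≤ normalizer ((C ⊔ S : Subgroup Γ) : Set Γ) := fun g hg =>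
    KS.mem_norm_sup (hnC g hg) hg
  have hMN : ∀ g ∈ K ⊔ S, g ∈ N → g ∈ C ⊔ S := by
    intro g hg hgN
    obtain ⟨k, s, he⟩ := hd.exists_decomp ⟨g, hg⟩
    change g = k * s at he
    have hkN : (k : Γ) ∈ N := by
      have h1 := N.mul_mem hgN (N.inv_mem (le_normalizer s.2))
      rwa [he, mul_inv_cancel_right] at h1
    rw [he]
    refine mul_mem (mem_sup_left ((hfixC _).2 ⟨k.2, fun t ht => ?_⟩)) (mem_sup_right s.2)
    have h2 := (mem_normalizer_iff.1 hkN t).1 ht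
    have h3 : t * k * t⁻¹ * (k : Γ)⁻¹ ∈ K :=
      mul_mem (hKnorm.conj_mem _ k.2 t) (inv_mem k.2)
    have h4 : t * k * t⁻¹ * (k : Γ)⁻¹ ∈ S := by
      have h5 := mul_mem ht (inv_mem h2)
      convert h5 using 1
      group
    exact mul_inv_eq_one.1 (hd.inf_eq _ h3 h4)
  have hZM' : Z ≤ C ⊔ S := fun z hz => hMN z (hZM hz) (hZN hz)
  have hZdec' : ∀ z ∈ Z, ∃ a ∈ Z ⊓ C, ∃ b ∈ Z ⊓ S, z = a * b := by
    intro z hz
    obtain ⟨a, ha, b, hb, he⟩ := hZdec z hz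
    exact ⟨a, ⟨ha.1, (hfixC a).2 ⟨ha.2, fun s _ => by
      rw [mem_center_iff.1 (hZc ha.1) s, mul_inv_cancel_right]⟩⟩, b, hb, he⟩
  have hSN : IsSyl p S N :=
    { le := le_normalizer
      isP := hS.isP
      ndvd := fun h => hS.ndvd (by
        rw [← relIndex_mul_relIndex S N ⊤ le_normalizer le_top]; exact h.mul_right _) }
  -- the correspondents
  have hglau := glau_matching hS.isP (fun s _ => hnK s) hKcop hCK hfixC
  have hstar : ∀ θ : IrrCharacter K, (∀ s ∈ S, FixBy s θ) →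
      ∃ θ' : IrrCharacter C, ¬ p ∣ rmult hCK θ θ' := fun θ hθ =>
    let ⟨θ', _, h⟩ := hglau.exists_left θ hθ; ⟨θ', h⟩
  haveI : Nonempty (IrrCharacter C) := ⟨trivialIrr C⟩
  choose! star hstarm using hstar
  have hfix' : ∀ θ' : IrrCharacter C, ∀ s ∈ S, FixBy s θ' := fun θ' s hs k k' he =>
    irr_apply_congr θ' (he.trans (((hfixC k).1 k.2).2 s hs))
  have hstarfix : ∀ θ : IrrCharacter K, (∀ s ∈ S, FixBy s θ) → ∀ g ∈ N,
      (FixBy g θ ↔ FixBy g (star θ)) := by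
    intro θ hθ g hg
    rw [fixBy_iff (hnK g), fixBy_iff (hnC g hg)]
    have hgθ : ∀ s ∈ S, FixBy s (cjI (hnK g) θ) := fun s hs k k' he => by
      rw [cjI_coe, cjI_coe]
      refine hθ (g * s * g⁻¹) ((mem_normalizer_iff.1 hg s).1 hs) _ _ ?_
      rw [cjE_coe, cjE_coe, he]
      group
    have hm : ¬ p ∣ rmult hCK (cjI (hnK g) θ) (cjI (hnC g hg) (star θ)) := by
      rw [rmult_cjI]; exact hstarm θ hθ
    constructor
    · intro h
      rw [h] at hm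
      exact hglau.unique_right θ _ _ hθ trivial trivial hm (hstarm θ hθ)
    · intro h
      rw [h] at hm
      exact hglau.unique_left _ θ (star θ) hgθ hθ trivial hm (hstarm θ hθ)
  -- the index set
  haveI := monoidHom_complex_finite (G := S)
  let I := {x : IrrCharacter K × (S →* ℂˣ) // ∃ h : ∀ s ∈ S, FixBy s x.1,
    rmult hZM (hd.ch x.1 h x.2) (linIrr μ) ≠ 0}
  letI := Fintype.ofFinite I
  have hovereq : ∀ θ : IrrCharacter K, ∀ (h : ∀ s ∈ S, FixBy s θ) (l : S →* ℂˣ),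
      rmult hZM (hd.ch θ h l) (linIrr μ) ≠ 0 ↔
        rmult hZM' (hdC.ch (star θ) (hfix' _) l) (linIrr μ) ≠ 0 := by
    intro θ h l
    rw [hd.over_iff hZc hZdec hZM, hdC.over_iff hZc hZdec' hZM']
    refine and_congr_left' ?_
    exact scalar_star hZc hCK (fun a ha haK => (hfixC a).2 ⟨haK, fun s _ => by
      rw [mem_center_iff.1 (hZc ha) s, mul_inv_cancel_right]⟩) μ θ (star θ)
      (fun h0 => hstarm θ h (by rw [h0]; exact dvd_zero p))
  -- the two sums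
  let ΘM := {ξ : IrrCharacter (K ⊔ S : Subgroup Γ) //
    rmult hZM ξ (linIrr μ) ≠ 0 ∧ ∀ s ∈ S, FixBy s ξ}
  let ΘN := {ζ : IrrCharacter (C ⊔ S : Subgroup Γ) //
    rmult hZM' ζ (linIrr μ) ≠ 0 ∧ ∀ s ∈ S, FixBy s ζ}
  letI := Fintype.ofFinite ΘM
  letI := Fintype.ofFinite ΘN
  have hμfix : ∀ g, FixBy g (linIrr μ) := fun g k k' he => irr_apply_congr _ (by
    rw [he, mem_center_iff.1 (hZc k.2) g, mul_inv_cancel_right])
  have hnZ : ∀ U : Subgroup Γ, U ≤ normalizer (Z : Set Γ) := fun U g _ => by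
    haveI : Z.Normal := ⟨fun z hz g => by
      rw [mem_center_iff.1 (hZc hz) g, mul_inv_cancel_right]; exact hz⟩
    rw [normalizer_eq_top_iff.2 this]
    exact Subgroup.mem_top g
  have e1 := cnt_eq_sum (p := p) hZM le_top hnM (hnZ ⊤) hS (linIrr μ) (fun g _ => hμfix g)
  have e2 := cnt_eq_sum (p := p) hZM' hM'N hnM' (hnZ N) hSN (linIrr μ) (fun g _ => hμfix g)
  let iM : I → ΘM := fun x => ⟨hd.ch x.1.1 x.2.choose x.1.2, x.2.choose_spec,
    fun s hs => fixBy_of_mem (mem_sup_right hs) _⟩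
  let iN : I → ΘN := fun x => ⟨hdC.ch (star x.1.1) (hfix' _) x.1.2,
    (hovereq _ _ _).1 x.2.choose_spec, fun s hs => fixBy_of_mem (mem_sup_right hs) _⟩
  have hiM : Function.Injective iM := fun x y h => by
    obtain ⟨h1, h2⟩ := hd.ch_inj (congrArg Subtype.val h)
    exact Subtype.ext (Prod.ext h1 h2)
  have hiN : Function.Injective iN := fun x y h => by
    obtain ⟨h1, h2⟩ := hdC.ch_inj (congrArg Subtype.val h)
    refine Subtype.ext (Prod.ext ?_ h2)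
    exact hglau.unique_left _ _ _ x.2.choose y.2.choose trivial (hstarm _ x.2.choose)
      (h1 ▸ hstarm _ y.2.choose)
  let fM : ΘM → ℚ := fun ξ => (cnt p (le_top : K ⊔ S ≤ ⊤) ξ.1 : ℚ) / (orb ⊤ S ξ.1 : ℚ)
  let fN : ΘN → ℚ := fun ζ => (cnt p hM'N ζ.1 : ℚ) / (orb N S ζ.1 : ℚ)
  have hzM : ∀ ξ, ξ ∉ Set.range iM → fM ξ = 0 := by
    intro ξ hξ
    by_cases hdeg : p ∣ Cfsg.charDegree (ξ.1 : (K ⊔ S : Subgroup Γ) → ℂ)
    · simp only [fM]
      rw [cnt_eq_zero le_top hnM hdeg, Nat.cast_zero, zero_div]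
    · obtain ⟨θ, h, l, he⟩ := hd.exists_ch ξ.1 hdeg
      exact absurd ⟨⟨(θ, l), h, he ▸ ξ.2.1⟩, Subtype.ext he.symm⟩ hξ
  have hzN : ∀ ζ, ζ ∉ Set.range iN → fN ζ = 0 := by
    intro ζ hζ
    by_cases hdeg : p ∣ Cfsg.charDegree (ζ.1 : (C ⊔ S : Subgroup Γ) → ℂ)
    · simp only [fN]
      rw [cnt_eq_zero hM'N hnM' hdeg, Nat.cast_zero, zero_div]
    · obtain ⟨θ', h', l, he⟩ := hdC.exists_ch ζ.1 hdeg
      obtain ⟨θ, hθ, hθm⟩ := hglau.exists_right θ' trivial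
      obtain rfl : θ' = star θ :=
        hglau.unique_right θ _ _ hθ trivial trivial hθm (hstarm θ hθ)
      exact absurd ⟨⟨(θ, l), hθ, (hovereq _ _ _).2 (he ▸ ζ.2.1)⟩, Subtype.ext he.symm⟩ hζ
  have key : ∀ x : I, fM (iM x) = fN (iN x) := by
    rintro ⟨⟨θ, l⟩, hx⟩
    set hθ := hx.choose with hθdef
    show (cnt p (le_top : K ⊔ S ≤ ⊤) (hd.ch θ hθ l) : ℚ) / (orb ⊤ S (hd.ch θ hθ l) : ℚ) =
      (cnt p hM'N (hdC.ch (star θ) (hfix' _) l) : ℚ) /
        (orb N S (hdC.ch (star θ) (hfix' _) l) : ℚ)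
    set ξ := hd.ch θ hθ l with hξ
    set ζ := hdC.ch (star θ) (hfix' _) l with hζ
    have hstab : ∀ g ∈ N, (g ∈ stab ξ ↔ g ∈ stab ζ) := by
      intro g hg
      rw [mem_stab, mem_stab, hd.fixBy_ch_iff θ hθ l (hnK g) hg,
        hdC.fixBy_ch_iff (star θ) (hfix' _) l (hnC g hg) hg, hstarfix θ hθ g hg]
      exact ⟨fun h => ⟨hnM' hg, h.2⟩, fun h => ⟨hnM (Subgroup.mem_top g), h.2⟩⟩
    rw [orb_eq (U := ⊤) (U' := N) (θ := ξ) (θ' := ζ) (by rw [top_inf_eq, inf_idem])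
      fun g hg => hstab g hg.2]
    congr 1
    exact_mod_cast term_eq hd hdC hKnorm hM hS hSN hCK hfixC hnC hMN hM'N θ hθ (star θ)
      (hstarm θ hθ) ξ (hd.ch_restr θ hθ l) (hd.charDegree_ch θ hθ l)
      ζ (hdC.ch_restr (star θ) (hfix' _) l) (hdC.charDegree_ch (star θ) (hfix' _) l) hstab
  have hsM : ∑ ξ, fM ξ = ∑ x, fM (iM x) :=
    (Fintype.sum_of_injective iM hiM _ fM hzM fun _ => rfl).symm
  have hsN : ∑ ζ, fN ζ = ∑ x, fN (iN x) :=
    (Fintype.sum_of_injective iN hiN _ fN hzN fun _ => rfl).symm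
  have : (cnt p (le_top : Z ≤ ⊤) (linIrr μ) : ℚ) = (cnt p hZN (linIrr μ) : ℚ) := by
    rw [show (le_top : Z ≤ ⊤) = hZM.trans le_top from rfl, e1,
      show hZN = hZM'.trans hM'N from rfl, e2]
    exact hsM.trans ((Finset.sum_congr rfl fun x _ => key x).trans hsN.symm)
  exact_mod_cast this

end Cfsg.Agent.RelMcKay
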