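import Cfsg.Agent.RelMcKay.Basic
import Cfsg.Agent.CharExt.Inertia
import Cfsg.Agent.Coprime.Action

/-!
# Counting characters of `p'`-degree over a character of a normal subgroup
-/

set_option autoImplicit false
set_option linter.style.haveILetI false
set_option linter.unusedSectionVars false

open scoped ComplexConjugate Pointwise
open Cfsg.Agent.Char

namespace Cfsg.Agent.RelMcKay

open Subgroup
open Cfsg.Agent.GlauberCorr

universe u

variable {Γ : Type u} [Group Γ] [Finite Γ] {p : ℕ} [hp : Fact p.Prime]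

/-- The number of characters of `p'`-degree of `U` over `ν`. -/
noncomputable def cnt (p : ℕ) {R U : Subgroup Γ} (h : R ≤ U) (ν : IrrCharacter R) : ℕ :=
  Nat.card {χ : IrrCharacter U // ¬ p ∣ Cfsg.charDegree (χ : U → ℂ) ∧ rmult h χ ν ≠ 0}

/-- `S` is a Sylow `p`-subgroup of `U`. -/
structure IsSyl (p : ℕ) (S U : Subgroup Γ) : Prop where
  le : S ≤ U
  isP : IsPGroup p S
  ndvd : ¬ p ∣ S.relIndex U

theorem IsSyl.exists_conj {S S' U : Subgroup Γ} (h : IsSyl p S U) (h' : IsSyl p S' U) :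
    ∃ t ∈ U, ∀ x, x ∈ S' ↔ t⁻¹ * x * t ∈ S := by
  let P := (h.isP.of_equiv (subgroupOfEquivOfLe h.le).symm).toSylow h.ndvd
  let P' := (h'.isP.of_equiv (subgroupOfEquivOfLe h'.le).symm).toSylow h'.ndvd
  obtain ⟨t, ht⟩ := MulAction.exists_smul_eq U P P'
  have ht' : MulAut.conj t • S.subgroupOf U = S'.subgroupOf U := by
    have := congrArg (fun Q : Sylow p U => (Q : Subgroup U)) ht
    rwa [Sylow.coe_subgroup_smul] at this
  have key : ∀ x : U, (x : Γ) ∈ S' ↔ (t : Γ)⁻¹ * x * t ∈ S := fun x => by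
    have h1 := Subgroup.mem_pointwise_smul_iff_inv_smul_mem (a := MulAut.conj t)
      (S := S.subgroupOf U) (x := x)
    rw [ht'] at h1
    simpa [mem_subgroupOf, MulAut.smul_def, MulAut.conj_inv_apply] using h1
  refine ⟨t, t.2, fun x => ⟨fun hx => (key ⟨x, h'.le hx⟩).1 hx, fun hx => ?_⟩⟩
  have hxU : x ∈ U := by
    rw [show x = (t : Γ) * ((t : Γ)⁻¹ * x * t) * (t : Γ)⁻¹ by group]
    exact mul_mem (mul_mem t.2 (h.le hx)) (inv_mem t.2)
  exact (key ⟨x, hxU⟩).2 hx

section Basic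

variable {R U : Subgroup Γ}

theorem exists_constituent (hRU : R ≤ U) (χ : IrrCharacter U) : ∃ θ, rmult hRU χ θ ≠ 0 := by
  letI := Fintype.ofFinite R
  obtain ⟨θ, k, hk, hθ⟩ := exists_irr_constituent
    (CharInd.isCharacter_comp (inclusion hRU) (isCharacter_of_irr χ.2))
    (fun h0 => irr_one_ne_zero χ.2 (by simpa using congrFun h0 1))
  exact ⟨θ, by rw [show rmult hRU χ θ = k from homMult_eq_of_classInner hθ]; exact hk.ne'⟩

/-- Degrees and orbits below a character. -/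
theorem clifford_over (hRU : R ≤ U) (hn : U ≤ normalizer (R : Set Γ)) {χ : IrrCharacter U}
    {θ : IrrCharacter R} (h : rmult hRU χ θ ≠ 0) :
    ((U ⊓ stab θ).relIndex U * Cfsg.charDegree (θ : R → ℂ) ∣ Cfsg.charDegree (χ : U → ℂ)) ∧
      ∀ φ, rmult hRU χ φ ≠ 0 → ∃ g : Γ, ∃ hg : g ∈ U, φ = cjI (hn hg) θ := by
  classical
  letI := Fintype.ofFinite U
  let N := R.subgroupOf U
  haveI : N.Normal := normal_subgroupOf_of_le_normalizer hn
  letI := Fintype.ofFinite N
  let e : N ≃* R := subgroupOfEquivOfLe hRU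
  have hm : ∀ ψ : IrrCharacter R, classInner (fun n : N => (χ : U → ℂ) n)
      (irrComap e ψ : N → ℂ) = (rmult hRU χ ψ : ℂ) := fun ψ => by
    rw [show (fun n : N => (χ : U → ℂ) n) = fun n : N => (χ : U → ℂ) (N.subtype n) from rfl,
      classInner_comp_eq_homMult, show N.subtype = (inclusion hRU).comp e.toMonoidHom from rfl,
      homMult_comp_equiv]
  have hc := CharInd.clifford N χ.2 (irrComap e θ).2 (by rw [hm]; exact_mod_cast h)
  rw [hm] at hc
  constructor
  · have hcard : (CharInd.conjClass N (irrComap e θ : N → ℂ)).card = (U ⊓ stab θ).relIndex U := by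
      rw [CharExt.card_conjClass, show (U ⊓ stab θ).relIndex U =
        ((U ⊓ stab θ).subgroupOf U).index from rfl]
      congr 1
      ext x
      rw [CharExt.mem_inertia, mem_subgroupOf]
      refine ⟨fun hx => ⟨x.2, hn x.2, fun k k' he => ?_⟩, fun hx => funext fun n => ?_⟩
      · have h1 := congrFun hx (e.symm k)
        rw [CharInd.conjChar_apply, irrComap_coe, irrComap_coe, e.apply_symm_apply] at h1
        rw [← h1]
        exact irr_apply_congr θ he
      · rw [CharInd.conjChar_apply]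
        exact hx.2.2 (e n) _ rfl
    obtain ⟨m, hm0, hm1⟩ := irr_one_pos θ.2
    have h1 := congrFun hc 1
    have hval : ∀ φ ∈ CharInd.conjClass N (irrComap e θ : N → ℂ), φ 1 = (m : ℂ) := by
      intro φ hφ
      obtain ⟨x, rfl⟩ := (CharInd.mem_conjClass N).1 hφ
      rw [CharInd.conjChar_apply, irrComap_coe, ← hm1]
      exact irr_apply_congr θ (by simp [e])
    simp only [Pi.smul_apply, Finset.sum_apply, smul_eq_mul, OneMemClass.coe_one,
      Finset.sum_congr rfl hval, Finset.sum_const, nsmul_eq_mul] at h1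
    rw [charDegree_eq_of_nat hm1, charDegree_eq_of_nat
      (show (χ : U → ℂ) 1 = ((rmult hRU χ θ * ((U ⊓ stab θ).relIndex U * m) : ℕ) : ℂ) by
        rw [h1, hcard]; push_cast; ring)]
    exact dvd_mul_left _ _
  · intro φ hφ
    by_contra hcon
    refine hφ ((Nat.cast_eq_zero (R := ℂ)).1 ?_)
    rw [← hm φ, hc, classInner_smul_left, classInner_sum_left]
    refine mul_eq_zero_of_right _ (Finset.sum_eq_zero fun ψ hψ => ?_)
    obtain ⟨x, rfl⟩ := (CharInd.mem_conjClass N).1 hψ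
    refine classInner_irr_ne (CharInd.conjChar_irr N x (irrComap e θ).2) (irrComap e φ).2
      fun he => hcon ⟨x, x.2, Subtype.ext (funext fun k => ?_)⟩
    have h1 := congrFun he (e.symm k)
    rw [irrComap_coe, MulEquiv.apply_symm_apply] at h1
    rw [← h1, CharInd.conjChar_apply, irrComap_coe, cjI_coe]
    exact irr_apply_congr θ rfl

theorem rmult_cjI_top (hRU : R ≤ U) (hn : U ≤ normalizer (R : Set Γ)) (χ : IrrCharacter U)
    (θ : IrrCharacter R) {g : Γ} (hg : g ∈ U) :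
    rmult hRU χ (cjI (hn hg) θ) = rmult hRU χ θ := by
  conv_lhs => rw [show χ = cjI (le_normalizer hg) χ from
    ((fixBy_iff _ χ).1 (fixBy_of_mem hg χ)).symm]
  exact rmult_cjI hRU _ _ χ θ

theorem not_dvd_degree_of_over (hRU : R ≤ U) (hn : U ≤ normalizer (R : Set Γ))
    {χ : IrrCharacter U} {θ : IrrCharacter R} (h : rmult hRU χ θ ≠ 0)
    (hχ : ¬ p ∣ Cfsg.charDegree (χ : U → ℂ)) :
    ¬ p ∣ Cfsg.charDegree (θ : R → ℂ) ∧ ¬ p ∣ (U ⊓ stab θ).relIndex U := by
  have hd := (clifford_over hRU hn h).1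
  exact ⟨fun h1 => hχ ((dvd_mul_of_dvd_right h1 _).trans hd),
    fun h1 => hχ ((dvd_mul_of_dvd_left h1 _).trans hd)⟩

theorem cnt_eq_zero (hRU : R ≤ U) (hn : U ≤ normalizer (R : Set Γ)) {θ : IrrCharacter R}
    (h : p ∣ Cfsg.charDegree (θ : R → ℂ)) : cnt p hRU θ = 0 := by
  rw [cnt, Nat.card_eq_zero]
  exact Or.inl ⟨fun χ => (not_dvd_degree_of_over hRU hn χ.2.2 χ.2.1).1 h⟩

theorem cnt_congr {U' : Subgroup Γ} (e : U = U') (h : R ≤ U) (h' : R ≤ U') (ν : IrrCharacter R) :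
    cnt p h ν = cnt p h' ν := by
  subst e; rfl

/-- Clifford correspondence for the counts. -/
theorem cnt_stab (hRU : R ≤ U) (hn : U ≤ normalizer (R : Set Γ)) (θ : IrrCharacter R)
    {T : Subgroup Γ} (hT : T = U ⊓ stab θ) (hRT : R ≤ T) (hidx : ¬ p ∣ T.relIndex U) :
    cnt p hRU θ = cnt p hRT θ := by
  classical
  letI := Fintype.ofFinite U
  have hTU : T ≤ U := hT ▸ inf_le_left
  let N := R.subgroupOf U
  haveI : N.Normal := normal_subgroupOf_of_le_normalizer hn
  let e : N ≃* R := subgroupOfEquivOfLe hRU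
  let θ' : IrrCharacter N := irrComap e θ
  let T' := T.subgroupOf U
  have hT' : T' = CharExt.inertia N (θ' : N → ℂ) := by
    ext x
    rw [CharExt.mem_inertia, mem_subgroupOf, hT]
    refine ⟨fun hx => funext fun n => ?_, fun hx => ⟨x.2, hn x.2, fun k k' he => ?_⟩⟩
    · rw [CharInd.conjChar_apply]
      exact hx.2.2 (e n) _ rfl
    · have h1 := congrFun hx (e.symm k)
      rw [CharInd.conjChar_apply, irrComap_coe, irrComap_coe, e.apply_symm_apply] at h1
      rw [← h1]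
      exact irr_apply_congr θ he
  have hNT : N ≤ T' := fun x hx => hRT hx
  let eT : T' ≃* T := subgroupOfEquivOfLe hTU
  have hN : ∀ (χ : IrrCharacter U), homMult N.subtype χ θ' = rmult hRU χ θ := fun χ => by
    rw [show N.subtype = (inclusion hRU).comp e.toMonoidHom from rfl, homMult_comp_equiv]
  have hNT' : ∀ ψ : IrrCharacter T,
      homMult (inclusion hNT) (irrComap eT ψ) θ' = rmult hRT ψ θ := fun ψ => by
    show homMult ((inclusion hRT).comp e.toMonoidHom) ψ θ' = _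
    rw [homMult_comp_equiv]
  have hdeg : ∀ (χ : IrrCharacter U) (ψ : IrrCharacter T),
      Cfsg.indFun T' (irrComap eT ψ : T' → ℂ) = (χ : U → ℂ) →
      Cfsg.charDegree (χ : U → ℂ) = T.relIndex U * Cfsg.charDegree (ψ : T → ℂ) := by
    intro χ ψ h
    obtain ⟨m, -, hm⟩ := irr_one_pos ψ.2
    rw [charDegree_eq_of_nat hm]
    refine charDegree_eq_of_nat ?_
    rw [← h, CharInd.indFun_one_apply, irrComap_coe, map_one, hm]
    push_cast
    rfl
  have hup : ∀ ψ : IrrCharacter T, rmult hRT ψ θ ≠ 0 → ∃ χ : IrrCharacter U,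
      rmult hRU χ θ ≠ 0 ∧ Cfsg.indFun T' (irrComap eT ψ : T' → ℂ) = (χ : U → ℂ) := by
    intro ψ hψ
    obtain ⟨χ, ho, h1, -⟩ := exists_clifford_up N θ' T' hT' hNT (irrComap eT ψ) (by rwa [hNT'])
    refine ⟨χ, (hN χ) ▸ ho, ?_⟩
    obtain ⟨ψ₀, -, -, hu, hind⟩ := exists_clifford_down N θ' T' hT' hNT χ ho
    rw [hu (irrComap eT ψ) (by rwa [hNT']) (by rw [h1]; exact one_ne_zero)]
    exact hind
  haveI : Nonempty (IrrCharacter U) := ⟨trivialIrr U⟩
  choose! F hF hFind using hup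
  refine (Nat.card_eq_of_bijective (fun ψ : {ψ : IrrCharacter T //
      ¬ p ∣ Cfsg.charDegree (ψ : T → ℂ) ∧ rmult hRT ψ θ ≠ 0} =>
    (⟨F ψ.1, ?_, hF ψ.1 ψ.2.2⟩ : {χ : IrrCharacter U //
      ¬ p ∣ Cfsg.charDegree (χ : U → ℂ) ∧ rmult hRU χ θ ≠ 0})) ⟨?_, ?_⟩).symm
  · rw [hdeg _ _ (hFind ψ.1 ψ.2.2)]
    intro hd
    rcases hp.out.dvd_mul.1 hd with hd | hd
    · exact hidx hd
    · exact ψ.2.1 hd
  · intro ψ ψ' he
    have he' : F ψ.1 = F ψ'.1 := congrArg Subtype.val he
    obtain ⟨ψ₀, -, -, hu, -⟩ := exists_clifford_down N θ' T' hT' hNT (F ψ.1)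
      (by rw [hN]; exact hF ψ.1 ψ.2.2)
    have h1 : ∀ φ : IrrCharacter T, rmult hRT φ θ ≠ 0 → F φ = F ψ.1 →
        irrComap eT φ = ψ₀ := by
      intro φ hφ hFφ
      refine hu _ (by rwa [hNT']) ?_
      letI := Fintype.ofFinite T'
      have h2 := classInner_comp_eq_homMult T'.subtype (F ψ.1) (irrComap eT φ)
      intro hz
      rw [hz, Nat.cast_zero] at h2
      have h3 := CharInd.classInner_indFun_right T' (irrComap eT φ : T' → ℂ)
        (irr_isClassFunction (F ψ.1).2)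
      rw [hFind φ hφ, hFφ, classInner_irr_self (F ψ.1).2] at h3
      exact one_ne_zero (h3.trans h2)
    have h4 := (h1 ψ.1 ψ.2.2 rfl).trans (h1 ψ'.1 ψ'.2.2 he'.symm).symm
    refine Subtype.ext (Subtype.ext (funext fun x => ?_))
    have h5 := congrFun (congrArg Subtype.val h4) (eT.symm x)
    rwa [irrComap_coe, irrComap_coe, eT.apply_symm_apply] at h5
  · intro χ
    obtain ⟨ψ₀, ho, -, -, hind⟩ := exists_clifford_down N θ' T' hT' hNT χ.1
      (by rw [hN]; exact χ.2.2)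
    let ψ : IrrCharacter T := irrComap eT.symm ψ₀
    have hψ0 : irrComap eT ψ = ψ₀ := irrComap_symm_irrComap eT ψ₀
    have hover : rmult hRT ψ θ ≠ 0 := by rw [← hNT', hψ0]; exact ho
    have hFψ : F ψ = χ.1 := Subtype.ext (by rw [← hFind ψ hover, hψ0]; exact hind)
    refine ⟨⟨ψ, fun hd => χ.2.1 ?_, hover⟩, Subtype.ext hFψ⟩
    rw [hdeg χ.1 ψ (by rw [hψ0]; exact hind)]
    exact hd.mul_left _

end Basic

/-! ### Double counting -/

section Double

variable {L R U S : Subgroup Γ}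

/-- The size of the orbit under the normaliser of `S` in `U`. -/
noncomputable def orb (U S : Subgroup Γ) {R : Subgroup Γ} (θ : IrrCharacter R) : ℕ :=
  (stab θ).relIndex (U ⊓ normalizer (S : Set Γ))

theorem cjI_cjI {H : Subgroup Γ} {a b : Γ} (ha : a ∈ normalizer (H : Set Γ))
    (hb : b ∈ normalizer (H : Set Γ)) (θ : IrrCharacter H) :
    cjI hb (cjI ha θ) = cjI (mul_mem ha hb) θ :=
  Subtype.ext (funext fun k => by
    rw [cjI_coe, cjI_coe, cjI_coe]
    exact irr_apply_congr θ (by simp [cjE_coe, mul_assoc]))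

/-- The characters of `R` fixed by `S` below a character of `p'`-degree form one orbit. -/
theorem exists_fixed_orbit (hRU : R ≤ U) (hn : U ≤ normalizer (R : Set Γ)) (hS : IsSyl p S U)
    {χ : IrrCharacter U} (hχ : ¬ p ∣ Cfsg.charDegree (χ : U → ℂ)) :
    (∃ θ, rmult hRU χ θ ≠ 0 ∧ ∀ s ∈ S, FixBy s θ) ∧
    ∀ θ, rmult hRU χ θ ≠ 0 → (∀ s ∈ S, FixBy s θ) →
      Nat.card {φ : IrrCharacter R // rmult hRU χ φ ≠ 0 ∧ ∀ s ∈ S, FixBy s φ} = orb U S θ := by
  classical
  constructor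
  · obtain ⟨θ, hθ⟩ := exists_constituent hRU χ
    have hidx := (not_dvd_degree_of_over hRU hn hθ hχ).2
    obtain ⟨Q⟩ : Nonempty (Sylow p (U ⊓ stab θ : Subgroup Γ)) := inferInstance
    let Q' := (Q : Subgroup (U ⊓ stab θ : Subgroup Γ)).map (U ⊓ stab θ : Subgroup Γ).subtype
    have hQ'le : Q' ≤ U ⊓ stab θ := map_subtype_le _
    have hQ' : IsSyl p Q' U :=
      { le := hQ'le.trans inf_le_left
        isP := Q.isPGroup'.map _
        ndvd := by
          rw [← relIndex_mul_relIndex Q' _ U hQ'le inf_le_left]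
          intro hd
          rcases hp.out.dvd_mul.1 hd with hd | hd
          · rw [relIndex, subgroupOf,
              comap_map_eq_self_of_injective (Subgroup.subtype_injective _)] at hd
            exact Q.not_dvd_index hd
          · exact hidx hd }
    obtain ⟨t, ht, hts⟩ := hS.exists_conj hQ'
    refine ⟨cjI (hn ht) θ, by rwa [rmult_cjI_top hRU hn χ θ ht], fun s hs k k' he => ?_⟩
    rw [cjI_coe, cjI_coe]
    have hst : t * s * t⁻¹ ∈ stab θ :=
      (hQ'le ((hts _).2 (by rwa [show t⁻¹ * (t * s * t⁻¹) * t = s by group]))).2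
    refine hst.2 _ _ ?_
    rw [cjE_coe, cjE_coe, he]
    group
  · intro θ hθ hθS
    set V := U ⊓ normalizer (S : Set Γ)
    have hVn : V ≤ normalizer (R : Set Γ) := inf_le_left.trans hn
    let T := (stab θ).subgroupOf V
    let f : V → {φ : IrrCharacter R // rmult hRU χ φ ≠ 0 ∧ ∀ s ∈ S, FixBy s φ} := fun g =>
      ⟨cjI (hVn (inv_mem g.2)) θ, by
        rw [rmult_cjI_top hRU hn χ θ (inv_mem g.2.1)]; exact hθ, fun s hs k k' he => by
        rw [cjI_coe, cjI_coe]
        refine hθS ((g : Γ)⁻¹ * s * g) ?_ _ _ ?_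
        · have := (mem_normalizer_iff.1 (inv_mem g.2.2) s).1 hs
          simpa using this
        · rw [cjE_coe, cjE_coe, he]
          group⟩
    have hwd : ∀ a b : V, (a : V ⧸ T) = (b : V ⧸ T) ↔ f a = f b := by
      intro a b
      rw [QuotientGroup.eq]
      have hab : ((a⁻¹ * b : V) : Γ) ∈ normalizer (R : Set Γ) := hVn (a⁻¹ * b).2
      constructor
      · intro h
        have h1 := (fixBy_iff hab θ).1 (show ((a⁻¹ * b : V) : Γ) ∈ stab θ from h).2
        refine Subtype.ext ?_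
        show cjI _ θ = cjI _ θ
        conv_rhs => rw [← h1, cjI_cjI]
        exact cjI_congr (by simp) _ _ θ
      · intro h
        have h2 : cjI (hVn (inv_mem a.2)) θ = cjI (hVn (inv_mem b.2)) θ :=
          congrArg Subtype.val h
        refine ⟨hab, (fixBy_iff hab θ).2 ?_⟩
        have h3 := congrArg (cjI (hVn b.2)) h2
        rw [cjI_cjI, cjI_cjI] at h3
        refine Eq.trans (cjI_congr (by simp) hab (mul_mem (hVn (inv_mem a.2)) (hVn b.2)) θ)
          (h3.trans ?_)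
        refine Subtype.ext (funext fun k => ?_)
        rw [cjI_coe]
        exact irr_apply_congr θ (by simp [cjE_coe])
    have hsurj : Function.Surjective f := by
      rintro ⟨φ, hφ, hφS⟩
      obtain ⟨g, hg, rfl⟩ := (clifford_over hRU hn hθ).2 φ hφ
      have hT1 : IsSyl p S (U ⊓ stab θ) :=
        { le := le_inf hS.le fun s hs => ⟨hn (hS.le hs), hθS s hs⟩
          isP := hS.isP
          ndvd := fun hd => hS.ndvd (by
            rw [← relIndex_mul_relIndex S (U ⊓ stab θ) U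
              (le_inf hS.le fun s hs => ⟨hn (hS.le hs), hθS s hs⟩) inf_le_left]
            exact hd.mul_right _) }
      let S' := S.map (MulAut.conj g).toMonoidHom
      have hS'le : S' ≤ U ⊓ stab θ := by
        rintro _ ⟨s, hs, rfl⟩
        have hmU : g * s * g⁻¹ ∈ U := U.mul_mem (U.mul_mem hg (hS.le hs)) (U.inv_mem hg)
        refine ⟨hmU, hn hmU, fun k k' he => ?_⟩
        change (k' : Γ) = g * s * g⁻¹ * k * (g * s * g⁻¹)⁻¹ at he
        have h1 := hφS s hs ((cjE R (hn hg)).symm k) ((cjE R (hn hg)).symm k') (by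
          show g⁻¹ * (k' : Γ) * g = s * (g⁻¹ * k * g) * s⁻¹
          rw [he]; group)
        rwa [cjI_coe, cjI_coe, MulEquiv.apply_symm_apply, MulEquiv.apply_symm_apply] at h1
      have hcard : Nat.card S' = Nat.card S :=
        Subgroup.card_map_of_injective (MulAut.conj g).injective
      have hT2 : IsSyl p S' (U ⊓ stab θ) :=
        { le := hS'le
          isP := hS.isP.map _
          ndvd := by
            have h1 := relIndex_mul_relIndex ⊥ S' (U ⊓ stab θ) bot_le hS'le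
            have h2 := relIndex_mul_relIndex ⊥ S (U ⊓ stab θ) bot_le hT1.le
            rw [relIndex_bot_left, relIndex_bot_left] at h1 h2
            rw [hcard] at h1
            rw [Nat.eq_of_mul_eq_mul_left Nat.card_pos (h1.trans h2.symm)]
            exact hT1.ndvd }
      obtain ⟨t, ht, hts⟩ := hT1.exists_conj hT2
      have htg : t⁻¹ * g ∈ V := by
        refine ⟨U.mul_mem (U.inv_mem ht.1) hg, ?_⟩
        refine mem_normalizer_iff.2 fun x => ?_
        rw [show t⁻¹ * g * x * (t⁻¹ * g)⁻¹ = t⁻¹ * (g * x * g⁻¹) * t by group, ← hts]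
        refine ⟨fun hx => ⟨x, hx, rfl⟩, ?_⟩
        rintro ⟨y, hy, he⟩
        change g * y * g⁻¹ = g * x * g⁻¹ at he
        rwa [mul_left_cancel (mul_right_cancel he)] at hy
      refine ⟨⟨(t⁻¹ * g)⁻¹, inv_mem htg⟩, Subtype.ext ?_⟩
      show cjI _ θ = cjI (hn hg) θ
      have h1 := (fixBy_iff ht.2.1 θ).1 ht.2.2
      conv_lhs => rw [← h1, cjI_cjI]
      exact cjI_congr (by group) _ _ θ
    let F : V ⧸ T → {φ : IrrCharacter R // rmult hRU χ φ ≠ 0 ∧ ∀ s ∈ S, FixBy s φ} :=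
      Quotient.lift f fun a b h => (hwd a b).1 (Quotient.sound h)
    rw [show orb U S θ = Nat.card (V ⧸ T) from rfl]
    refine (Nat.card_eq_of_bijective F ⟨?_, fun y => ?_⟩).symm
    · intro a b h
      induction a using QuotientGroup.induction_on with
      | _ a =>
      induction b using QuotientGroup.induction_on with
      | _ b => exact (hwd a b).2 h
    · obtain ⟨g, hg⟩ := hsurj y
      exact ⟨(g : V ⧸ T), hg⟩

/-- Double counting over the characters of an intermediate normal subgroup fixed by `S`. -/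
theorem cnt_eq_sum (hLR : L ≤ R) (hRU : R ≤ U) (hnR : U ≤ normalizer (R : Set Γ))
    (hnL : U ≤ normalizer (L : Set Γ)) (hS : IsSyl p S U) (ν : IrrCharacter L)
    (hν : ∀ g ∈ U, FixBy g ν)
    [Fintype {θ : IrrCharacter R // rmult hLR θ ν ≠ 0 ∧ ∀ s ∈ S, FixBy s θ}] :
    (cnt p (hLR.trans hRU) ν : ℚ) =
      ∑ θ : {θ : IrrCharacter R // rmult hLR θ ν ≠ 0 ∧ ∀ s ∈ S, FixBy s θ},
        (cnt p hRU θ.1 : ℚ) / (orb U S θ.1 : ℚ) := by
  classical
  set Θ := {θ : IrrCharacter R // rmult hLR θ ν ≠ 0 ∧ ∀ s ∈ S, FixBy s θ}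
  let A : Finset (IrrCharacter U) := Finset.univ.filter fun χ =>
    ¬ p ∣ Cfsg.charDegree (χ : U → ℂ) ∧ rmult (hLR.trans hRU) χ ν ≠ 0
  have hcntν : cnt p (hLR.trans hRU) ν = A.card := by
    rw [cnt, Nat.card_eq_fintype_card, Fintype.card_subtype]
  have hover : ∀ (χ : IrrCharacter U) (θ : Θ), rmult hRU χ θ.1 ≠ 0 →
      rmult (hLR.trans hRU) χ ν ≠ 0 := fun χ θ h => rmult_ne_zero_trans hLR hRU h θ.2.1
  have hcnt : ∀ θ : Θ, (cnt p hRU θ.1 : ℚ) =
      ∑ χ ∈ A, if rmult hRU χ θ.1 ≠ 0 then (1 : ℚ) else 0 := fun θ => by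
    rw [Finset.sum_boole, cnt, Nat.card_eq_fintype_card, Fintype.card_subtype]
    congr 2
    ext χ
    simp only [Finset.mem_filter, Finset.mem_univ, true_and, A]
    exact ⟨fun h => ⟨⟨h.1, hover χ θ h.2⟩, h.2⟩, fun h => ⟨h.1.1, h.2⟩⟩
  rw [hcntν, Finset.sum_congr rfl fun θ _ => by rw [hcnt θ, Finset.sum_div], Finset.sum_comm,
    Finset.card_eq_sum_ones, Nat.cast_sum]
  refine Finset.sum_congr rfl fun χ hχ => ?_
  rw [Nat.cast_one]
  obtain ⟨hdeg, hχν⟩ := (Finset.mem_filter.1 hχ).2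
  obtain ⟨⟨θ₀, hθ₀, hθ₀S⟩, horb⟩ := exists_fixed_orbit hRU hnR hS hdeg
  -- everything below `χ` lies over `ν`
  have hνall : ∀ φ, rmult hRU χ φ ≠ 0 → rmult hLR φ ν ≠ 0 := by
    intro φ hφ
    obtain ⟨ψ, hψ, hψν⟩ := exists_between hLR hRU hχν
    obtain ⟨g, hg, rfl⟩ := (clifford_over hRU hnR hψ).2 φ hφ
    rw [← (fixBy_iff (hnL hg) ν).1 (hν g hg), rmult_cjI]
    exact hψν
  have he : ∀ θ : Θ, (if rmult hRU χ θ.1 ≠ 0 then (1 : ℚ) else 0) / (orb U S θ.1 : ℚ) =
      if rmult hRU χ θ.1 ≠ 0 then (1 : ℚ) / (orb U S θ₀ : ℚ) else 0 := by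
    intro θ
    by_cases h : rmult hRU χ θ.1 ≠ 0
    · rw [if_pos h, if_pos h, ← horb θ.1 h θ.2.2, ← horb θ₀ hθ₀ hθ₀S]
    · rw [if_neg h, if_neg h, zero_div]
  have hcard : (Finset.univ.filter fun θ : Θ => rmult hRU χ θ.1 ≠ 0).card = orb U S θ₀ := by
    rw [← horb θ₀ hθ₀ hθ₀S, ← Nat.card_eq_finsetCard]
    exact Nat.card_congr
      { toFun := fun θ => ⟨θ.1.1, (Finset.mem_filter.1 θ.2).2, θ.1.2.2⟩
        invFun := fun φ => ⟨⟨φ.1, hνall φ.1 φ.2.1, φ.2.2⟩,
          Finset.mem_filter.2 ⟨Finset.mem_univ _, φ.2.1⟩⟩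
        left_inv := fun _ => rfl
        right_inv := fun _ => rfl }
  have horb0 : orb U S θ₀ ≠ 0 := Subgroup.index_ne_zero_of_finite
  rw [Finset.sum_congr rfl fun θ _ => he θ, ← Finset.sum_filter, Finset.sum_const,
    nsmul_eq_mul, mul_one_div, eq_comm, div_eq_one_iff_eq (Nat.cast_ne_zero.2 horb0), Nat.cast_inj]
  convert hcard

end Double

end Cfsg.Agent.RelMcKay
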