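import Cfsg.Agent.RelMcKay.Count
import Cfsg.Agent.RelMcKay.PExt
import Cfsg.Agent.CharExt.CentralModel

/-!
# The central model and the transfer of the counts
-/

set_option autoImplicit false
set_option linter.style.haveILetI false
set_option linter.unusedSectionVars false

open scoped ComplexConjugate
open Cfsg.Agent.Char

namespace Cfsg.Agent.RelMcKay

open Subgroup
open Cfsg.Agent.GlauberCorr

universe u

variable {G : Type u} [Group G] [Finite G]

theorem exists_model (L : Subgroup G) [hL : L.Normal] (ν : IrrCharacter L)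
    (hinv : ∀ g, FixBy g ν) :
    ∃ (X : Type u) (_ : Group X) (_ : Finite X) (r : X →* G ⧸ L) (μ : r.ker →* ℂˣ),
      Function.Surjective r ∧ r.ker ≤ center X ∧
      ∀ (p : ℕ) [Fact p.Prime] (U : Subgroup G) (hLU : L ≤ U) (V : Subgroup X)
        (hk : r.ker ≤ V), V = (U.map (QuotientGroup.mk' L)).comap r →
        ¬ p ∣ Cfsg.charDegree (ν : L → ℂ) → cnt p hLU ν = cnt p hk (linIrr μ) := by
  classical
  letI := Fintype.ofFinite G
  letI := Fintype.ofFinite L
  obtain ⟨X, _, _, f, N', δ, hf, hN'n, hmap, hcent, hmeet, hδ, hδN, hδν⟩ :=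
    CharDeep.exists_cover L ν.2 fun g n => hinv g n _ rfl
  let r : X ⧸ N' →* G ⧸ L := QuotientGroup.lift N' ((QuotientGroup.mk' L).comp f)
    fun x hx => (QuotientGroup.eq_one_iff _).2 (hmap ▸ mem_map_of_mem f hx)
  let π := QuotientGroup.mk' N'
  have hπ : Function.Surjective π := QuotientGroup.mk'_surjective N'
  have hr : Function.Surjective r := fun y => by
    obtain ⟨y, rfl⟩ := QuotientGroup.mk'_surjective L y
    obtain ⟨x, rfl⟩ := hf y
    exact ⟨π x, rfl⟩
  have hker : r.ker = f.ker.map π := by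
    ext y
    obtain ⟨x, rfl⟩ := hπ y
    show (f x : G ⧸ L) = 1 ↔ _
    rw [QuotientGroup.eq_one_iff]
    refine ⟨fun hx => ?_, ?_⟩
    · rw [← hmap] at hx
      obtain ⟨m, hm, hmx⟩ := hx
      refine ⟨m⁻¹ * x, ?_, ?_⟩
      · show f (m⁻¹ * x) = 1
        rw [map_mul, map_inv, hmx, inv_mul_cancel]
      · rw [map_mul, map_inv, show π m = 1 from (QuotientGroup.eq_one_iff m).2 hm, inv_one, one_mul]
    · rintro ⟨w, hw, hwx⟩
      have h1 : w⁻¹ * x ∈ N' := QuotientGroup.eq.1 hwx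
      have h2 : f (w⁻¹ * x) ∈ L := hmap ▸ mem_map_of_mem f h1
      rwa [map_mul, map_inv, show f w = 1 from hw, inv_one, one_mul] at h2
  obtain ⟨c, hc⟩ := CharExt.exists_central_hom hδ f.ker fun z hz =>
    mem_center_iff.2 fun y => (hcent z hz y).symm
  let i₀ : f.ker →* r.ker := MonoidHom.mk' (fun z => ⟨π z, hker ▸ mem_map_of_mem π z.2⟩)
    fun a b => Subtype.ext (map_mul π (a : X) (b : X))
  let i : f.ker ≃* r.ker := MulEquiv.ofBijective i₀
    ⟨(injective_iff_map_eq_one _).2 fun z hz => Subtype.ext (hmeet z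
      ((QuotientGroup.eq_one_iff _).1 (congrArg Subtype.val hz)) z.2), fun y => by
      obtain ⟨z, hz, hzy⟩ : (y : X ⧸ N') ∈ f.ker.map π := hker ▸ y.2
      exact ⟨⟨z, hz⟩, Subtype.ext hzy⟩⟩
  have hZc : r.ker ≤ center (X ⧸ N') := by
    rw [hker]
    rintro _ ⟨z, hz, rfl⟩
    refine mem_center_iff.2 fun y => ?_
    obtain ⟨y, rfl⟩ := hπ y
    rw [← map_mul, ← map_mul, hcent z hz y]
  refine ⟨X ⧸ N', inferInstance, inferInstance, r, (c⁻¹).comp i.symm.toMonoidHom, hr, hZc, ?_⟩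
  intro p _ U hLU V hk hV hν
  set μ := (c⁻¹).comp i.symm.toMonoidHom with hμ
  have hμi : ∀ z, (μ (i z) : ℂ) * (c z : ℂ) = 1 := fun z => by
    rw [hμ, MonoidHom.comp_apply, MulEquiv.coe_toMonoidHom, MulEquiv.symm_apply_apply,
      MonoidHom.inv_apply]
    exact Units.inv_mul _
  let Gh := U.comap f
  letI := Fintype.ofFinite U
  letI := Fintype.ofFinite Gh
  letI := Fintype.ofFinite V
  have hN'G : N' ≤ Gh := fun x hx => hLU (hmap ▸ mem_map_of_mem f hx)
  have hmemV : ∀ x : X, π x ∈ V ↔ f x ∈ U := by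
    intro x
    rw [hV, mem_comap]
    refine ⟨fun ⟨g, hg, he⟩ => ?_, fun h => ⟨f x, h, rfl⟩⟩
    have h1 := U.mul_mem hg (hLU (QuotientGroup.eq.1 he))
    rwa [mul_inv_cancel_left] at h1
  let pV : Gh →* V := (π.comp Gh.subtype).codRestrict V fun x => (hmemV x).2 x.2
  have hpV : Function.Surjective pV := by
    rintro ⟨y, hy⟩
    obtain ⟨x, rfl⟩ := hπ y
    exact ⟨⟨x, (hmemV x).1 hy⟩, rfl⟩
  let fU : Gh →* U := (f.comp Gh.subtype).codRestrict U fun x => x.2
  have hfU : Function.Surjective fU := fun g => by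
    obtain ⟨x, hx⟩ := hf g
    exact ⟨⟨x, show f x ∈ U by rw [hx]; exact g.2⟩, Subtype.ext hx⟩
  let M := N'.subgroupOf Gh
  haveI : M.Normal := hN'n.subgroupOf Gh
  letI := Fintype.ofFinite M
  letI := Fintype.ofFinite N'
  have hδG : IsIrrCharacter Gh (fun x : Gh => δ x) :=
    CharDeep.irr_res_of_le (isCharacter_of_irr hδ) N' Gh hN'G hδN
  have hδM : IsIrrCharacter M (fun x : M => δ ((x : Gh) : X)) :=
    Char.isIrrCharacter_comp_mulEquiv hδN (subgroupOfEquivOfLe hN'G)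
  have hpM : ∀ m : M, pV (m : Gh) = 1 := fun m =>
    Subtype.ext ((QuotientGroup.eq_one_iff _).2 m.2)
  have hkerV : ∀ x : Gh, pV x = 1 → x ∈ M := fun x hx =>
    (QuotientGroup.eq_one_iff (N := N') ((x : Gh) : X)).1 (congrArg Subtype.val hx)
  let q : M →* L := MonoidHom.mk' (fun x => ⟨f (x : Gh), hmap ▸ mem_map_of_mem f x.2⟩)
    fun a b => Subtype.ext (map_mul f ((a : Gh) : X) ((b : Gh) : X))
  have hq : Function.Surjective q := by
    rintro ⟨l, hl⟩
    obtain ⟨x, hx, rfl⟩ : l ∈ N'.map f := hmap.symm ▸ hl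
    exact ⟨⟨⟨x, hN'G hx⟩, hx⟩, rfl⟩
  have hδq : ∀ x : M, δ ((x : Gh) : X) = (ν : L → ℂ) (q x) := fun x =>
    hδν ⟨_, x.2⟩ (q x).2
  -- the images
  have hψ : ∀ β : IrrCharacter V, rmult hk β (linIrr μ) ≠ 0 → ∃ ψ : IrrCharacter U,
      (∀ y : Gh, (ψ : U → ℂ) (fU y) = (β : V → ℂ) (pV y) * δ y) ∧ rmult hLU ψ ν ≠ 0 := by
    intro β hβμ
    obtain ⟨cβ, hcβ, hcμ⟩ := exists_central_scalar hk hZc β
    have hcβ' := (hcμ μ).1 hβμ
    have hprod := CharExt.isIrrCharacter_mul M (fun x : Gh => δ x) hδG hδM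
      (β := fun x => (β : V → ℂ) (pV x)) (CharInd.irr_comp_surjective pV hpV β.2) (fun m g => by
        show (β : V → ℂ) (pV ((m : Gh) * g)) = _
        rw [map_mul, hpM, one_mul])
    have hconst : ∀ z ∈ fU.ker,
        ((fun x : Gh => (β : V → ℂ) (pV x)) * fun x : Gh => δ x) z =
        ((fun x : Gh => (β : V → ℂ) (pV x)) * fun x : Gh => δ x) 1 := by
      intro z hz
      let z₀ : f.ker := ⟨(z : X), congrArg Subtype.val hz⟩
      have h1 : pV z = inclusion hk (i z₀) * 1 := by rw [mul_one]; rfl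
      have h2 := hc z₀ 1
      rw [mul_one] at h2
      show (β : V → ℂ) (pV z) * δ ((z : Gh) : X) = (β : V → ℂ) (pV 1) * δ ((1 : Gh) : X)
      rw [h1, hcβ, hcβ', map_one, OneMemClass.coe_one,
        show ((z : Gh) : X) = ((z₀ : f.ker) : X) from rfl, h2]
      linear_combination ((β : V → ℂ) 1 * δ 1) * hμi z₀
    obtain ⟨ψ₀, hψ₀, hψ₀e⟩ := Char.irr_exists_descend hprod fU.ker hconst
    let eU := QuotientGroup.quotientKerEquivOfSurjective fU hfU
    let ψ : IrrCharacter U := ⟨ψ₀ ∘ eU.symm, Char.isIrrCharacter_comp_mulEquiv hψ₀ eU.symm⟩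
    have hψy : ∀ y : Gh, (ψ : U → ℂ) (fU y) = (β : V → ℂ) (pV y) * δ y := fun y => by
      show ψ₀ (eU.symm (fU y)) = _
      rw [show eU.symm (fU y) = (y : Gh ⧸ fU.ker) from eU.symm_apply_apply (y : Gh ⧸ fU.ker)]
      exact (hψ₀e y).symm
    refine ⟨ψ, hψy, ?_⟩
    have hres : ∀ n : L, (ψ : U → ℂ) (inclusion hLU n) = (β : V → ℂ) 1 * (ν : L → ℂ) n := by
      intro n
      obtain ⟨x, rfl⟩ := hq n
      rw [show inclusion hLU (q x) = fU (x : Gh) from rfl, hψy, hpM, hδq]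
    obtain ⟨b, hb0, hb⟩ := irr_one_pos β.2
    intro hz
    have h1 := classInner_comp_eq_homMult (inclusion hLU) ψ ν
    rw [show (fun n : L => (ψ : U → ℂ) (inclusion hLU n)) = (b : ℂ) • (ν : L → ℂ) from
      funext fun n => by rw [hres, hb]; rfl, classInner_smul_left, classInner_irr_self ν.2,
      mul_one, show homMult (inclusion hLU) ψ ν = 0 from hz, Nat.cast_inj] at h1
    exact hb0.ne' h1
  haveI : Nonempty (IrrCharacter U) := ⟨trivialIrr U⟩
  choose! F hFy hFo using hψ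
  obtain ⟨n, hn0, hn⟩ := irr_one_pos ν.2
  have hnν : Cfsg.charDegree (ν : L → ℂ) = n := charDegree_eq_of_nat hn
  have hδ1 : δ 1 = (n : ℂ) := by
    rw [← hn]
    exact (hδq 1).trans (by rw [map_one])
  have hdeg : ∀ β : IrrCharacter V, rmult hk β (linIrr μ) ≠ 0 →
      Cfsg.charDegree (F β : U → ℂ) = Cfsg.charDegree (β : V → ℂ) * n := by
    intro β hβ
    obtain ⟨b, -, hb⟩ := irr_one_pos β.2
    rw [charDegree_eq_of_nat hb]
    refine charDegree_eq_of_nat ?_
    rw [← map_one fU, hFy β hβ, map_one, OneMemClass.coe_one, hb, hδ1]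
    push_cast; rfl
  refine (Nat.card_eq_of_bijective (fun β : {β : IrrCharacter V //
      ¬ p ∣ Cfsg.charDegree (β : V → ℂ) ∧ rmult hk β (linIrr μ) ≠ 0} =>
    (⟨F β.1, ?_, hFo β.1 β.2.2⟩ : {χ : IrrCharacter U //
      ¬ p ∣ Cfsg.charDegree (χ : U → ℂ) ∧ rmult hLU χ ν ≠ 0})) ⟨?_, ?_⟩).symm
  · rw [hdeg _ β.2.2]
    intro hd
    rcases (Fact.out (p := p.Prime)).dvd_mul.1 hd with hd | hd
    · exact β.2.1 hd
    · exact hν (hnν ▸ hd)
  · intro β β' he
    have he' : F β.1 = F β'.1 := congrArg Subtype.val he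
    refine Subtype.ext (Subtype.ext (funext fun v => ?_))
    obtain ⟨y, rfl⟩ := hpV v
    -- a point of the coset where `δ` does not vanish
    obtain ⟨m, hm⟩ : ∃ m : M, δ (((m : Gh) * y : Gh) : X) ≠ 0 := by
      by_contra hcon
      push Not at hcon
      have h1 := congrFun (CharExt.avgN_normSq_eq_one M (fun x : Gh => δ x) hδG hδM) y
      rw [CharExt.avgN, Finset.sum_eq_zero (fun m _ => by
        show δ _ * _ = 0
        rw [hcon m, zero_mul]), mul_zero] at h1
      exact zero_ne_one h1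
    have h1 := hFy β.1 β.2.2 ((m : Gh) * y)
    rw [he', hFy β'.1 β'.2.2, map_mul, hpM, one_mul] at h1
    exact (mul_right_cancel₀ hm h1).symm
  · intro χ
    let χh : IrrCharacter Gh :=
      ⟨fun y => (χ.1 : U → ℂ) (fU y), CharInd.irr_comp_surjective fU hfU χ.1.2⟩
    let δM : IrrCharacter M := ⟨_, hδM⟩
    let δGh : IrrCharacter Gh := ⟨_, hδG⟩
    have hover : homMult M.subtype χh δM ≠ 0 := by
      intro hz
      apply χ.2.2
      refine homMult_eq_of_classInner ?_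
      rw [← classInner_comp_surjective q hq, Nat.cast_zero]
      have h1 := classInner_comp_eq_homMult M.subtype χh δM
      rw [hz, Nat.cast_zero] at h1
      rw [← h1]
      congr 1
      funext x
      exact (hδq x).symm
    obtain ⟨β', hβ'⟩ := exists_gallagher M δM δGh (fun _ => rfl) χh hover
    have hirr : IsIrrCharacter Gh fun y => (β' : Gh ⧸ M → ℂ) (y : Gh ⧸ M) :=
      isIrrCharacter_comp β'.2 (QuotientGroup.mk' M) (QuotientGroup.mk'_surjective M)
    obtain ⟨β₀, hβ₀, hβ₀e⟩ := Char.irr_exists_descend hirr pV.ker fun z hz => by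
      show (β' : Gh ⧸ M → ℂ) (z : Gh ⧸ M) = (β' : Gh ⧸ M → ℂ) ((1 : Gh) : Gh ⧸ M)
      rw [(QuotientGroup.eq_one_iff _).2 (hkerV z hz), QuotientGroup.mk_one]
    let eV := QuotientGroup.quotientKerEquivOfSurjective pV hpV
    let β : IrrCharacter V := ⟨β₀ ∘ eV.symm, Char.isIrrCharacter_comp_mulEquiv hβ₀ eV.symm⟩
    have hβy : ∀ y : Gh, (χ.1 : U → ℂ) (fU y) = (β : V → ℂ) (pV y) * δ y := fun y => by
      show _ = β₀ (eV.symm (pV y)) * _
      rw [show eV.symm (pV y) = (y : Gh ⧸ pV.ker) from eV.symm_apply_apply (y : Gh ⧸ pV.ker),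
        ← hβ₀e]
      exact hβ' y
    obtain ⟨b, hb0, hb⟩ := irr_one_pos β.2
    have hβμ : rmult hk β (linIrr μ) ≠ 0 := by
      obtain ⟨cβ, hcβ, hcμ⟩ := exists_central_scalar hk hZc β
      refine (hcμ μ).2 (MonoidHom.ext fun w => Units.ext ?_)
      obtain ⟨z, rfl⟩ := i.surjective w
      let zG : Gh := ⟨(z : X), show f z ∈ U by rw [show f z = 1 from z.2]; exact one_mem _⟩
      have h1 := hβy zG
      have h2 := hc z 1
      rw [mul_one] at h2
      rw [show fU zG = fU 1 from Subtype.ext (z.2.trans (map_one f).symm), hβy 1,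
        show pV zG = inclusion hk (i z) * 1 by rw [mul_one]; rfl, hcβ,
        show ((zG : Gh) : X) = ((z : f.ker) : X) from rfl, h2, map_one, hb, OneMemClass.coe_one,
        hδ1] at h1
      have hne : (b : ℂ) * (n : ℂ) ≠ 0 :=
        mul_ne_zero (Nat.cast_ne_zero.2 hb0.ne') (Nat.cast_ne_zero.2 hn0.ne')
      have h3 : (cβ (i z) : ℂ) * (c z : ℂ) = 1 :=
        mul_right_cancel₀ hne (by linear_combination -h1)
      exact mul_right_cancel₀ (Units.ne_zero (c z)) (h3.trans (hμi z).symm)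
    have hFβ : F β = χ.1 := Subtype.ext (funext fun u => by
      obtain ⟨y, rfl⟩ := hfU u
      rw [hFy β hβμ, hβy])
    refine ⟨⟨β, fun hd => χ.2.1 ?_, hβμ⟩, Subtype.ext hFβ⟩
    rw [← hFβ, hdeg β hβμ]
    exact hd.mul_right _

end Cfsg.Agent.RelMcKay
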