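import Cfsg.Agent.RelMcKay.Central
import Cfsg.Agent.RelMcKay.Model
import Cfsg.Agent.PSolv.Basic

/-!
# The relative count of characters of `p'`-degree for `p`-solvable groups
-/

set_option autoImplicit false
set_option linter.style.haveILetI false
set_option linter.unusedSectionVars false

open scoped ComplexConjugate
open Cfsg.Agent.Char

namespace Cfsg.Agent.RelMcKay

open Subgroup
open Cfsg.Agent.GlauberCorr

universe u

variable {G : Type u} [Group G] [Finite G] {p : ℕ} [hp : Fact p.Prime]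

theorem cnt_congr_hom {L U : Subgroup G} {G' : Type u} [Group G'] [Finite G'] {L' U' : Subgroup G'}
    (h : L ≤ U) (h' : L' ≤ U') (eL : L' ≃* L) (eU : U' ≃* U)
    (hcomm : ∀ x, eU (inclusion h' x) = inclusion h (eL x)) (ν : IrrCharacter L) :
    cnt p h ν = cnt p h' (irrComap eL ν) := by
  have hr : ∀ χ : IrrCharacter U, rmult h' (irrComap eU χ) (irrComap eL ν) = rmult h χ ν := by
    intro χ
    letI := Fintype.ofFinite L
    letI := Fintype.ofFinite L'
    refine homMult_eq_of_classInner ?_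
    rw [← classInner_comp_eq_homMult,
      ← classInner_comp_surjective eL.toMonoidHom eL.surjective
        (fun x => (χ : U → ℂ) (inclusion h x))]
    congr 1
    funext x
    rw [irrComap_coe, hcomm]
    rfl
  have hd : ∀ χ : IrrCharacter U,
      Cfsg.charDegree (irrComap eU χ : U' → ℂ) = Cfsg.charDegree (χ : U → ℂ) := fun χ => by
    simp only [Cfsg.charDegree, irrComap_coe, map_one]
  refine Nat.card_eq_of_bijective (fun χ : {χ : IrrCharacter U //
      ¬ p ∣ Cfsg.charDegree (χ : U → ℂ) ∧ rmult h χ ν ≠ 0} =>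
    (⟨irrComap eU χ.1, (hd χ.1).symm ▸ χ.2.1, (hr χ.1).symm ▸ χ.2.2⟩ :
      {ψ : IrrCharacter U' // ¬ p ∣ Cfsg.charDegree (ψ : U' → ℂ) ∧
        rmult h' ψ (irrComap eL ν) ≠ 0})) ⟨fun a b he => ?_, fun b => ?_⟩
  · refine Subtype.ext (Subtype.ext (funext fun u => ?_))
    have h1 := congrFun (congrArg Subtype.val (congrArg Subtype.val he)) (eU.symm u)
    change (irrComap eU a.1 : U' → ℂ) _ = (irrComap eU b.1 : U' → ℂ) _ at h1
    rwa [irrComap_coe, irrComap_coe, eU.apply_symm_apply] at h1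
  · have hb : irrComap eU (irrComap eU.symm b.1) = b.1 := irrComap_symm_irrComap eU b.1
    refine ⟨⟨irrComap eU.symm b.1, ?_, ?_⟩, Subtype.ext hb⟩
    · rw [← hd, hb]; exact b.2.1
    · rw [← hr, hb]; exact b.2.2

theorem subOf_mono {L V : Subgroup G} (h : L ≤ V) (U : Subgroup G) :
    L.subgroupOf U ≤ V.subgroupOf U :=
  comap_mono h

theorem cnt_subgroupOf {L V U : Subgroup G} (hLV : L ≤ V) (hVU : V ≤ U) (ν : IrrCharacter L) :
    cnt p hLV ν = cnt p (subOf_mono hLV U)
      (irrComap (subgroupOfEquivOfLe (hLV.trans hVU)) ν) :=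
  cnt_congr_hom hLV _ _ (subgroupOfEquivOfLe hVU) (fun _ => rfl) ν

theorem syl_relIndex_normal {K S U : Subgroup G} (hS : IsSyl p S U) (hKU : K ≤ U)
    (hn : U ≤ normalizer (K : Set G)) : ¬ p ∣ S.relIndex K := by
  have h1 := relIndex_mul_relIndex ⊥ K (K ⊔ S) bot_le le_sup_left
  have h2 := relIndex_mul_relIndex ⊥ S (K ⊔ S) bot_le le_sup_right
  have h3 := relIndex_mul_relIndex ⊥ (K ⊓ S) K bot_le inf_le_left
  have h4 := relIndex_mul_relIndex ⊥ (K ⊓ S) S bot_le inf_le_right
  rw [relIndex_bot_left, relIndex_bot_left] at h1 h2 h3 h4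
  rw [relIndex_sup_eq (hS.le.trans hn)] at h1
  rw [inf_relIndex_right] at h4
  rw [inf_relIndex_left] at h3
  have h5 : Nat.card S * S.relIndex (K ⊔ S) = Nat.card S * S.relIndex K := by
    rw [h2, ← h1, ← h4, ← h3]; ring
  rw [← Nat.eq_of_mul_eq_mul_left Nat.card_pos h5]
  intro hd
  apply hS.ndvd
  rw [← relIndex_mul_relIndex S (K ⊔ S) U le_sup_right (sup_le hKU hS.le)]
  exact hd.mul_right _

/-- The case where `K S` is normal, `K ⧸ L` of order prime to `p`. -/
theorem step_central {U L K S : Subgroup G} (hLK : L ≤ K) (hKU : K ≤ U)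
    (hnL : U ≤ normalizer (L : Set G)) (hnK : U ≤ normalizer (K : Set G))
    (hS : IsSyl p S U) (hKS : U ≤ normalizer ((K ⊔ S : Subgroup G) : Set G))
    (hKp : ¬ p ∣ L.relIndex K) (ν : IrrCharacter L) (hν : ∀ g ∈ U, FixBy g ν)
    (hLN : L ≤ U ⊓ normalizer ((L ⊔ S : Subgroup G) : Set G)) :
    cnt p (hLK.trans hKU) ν = cnt p hLN ν := by
  classical
  have hLU := hLK.trans hKU
  by_cases hdeg : p ∣ Cfsg.charDegree (ν : L → ℂ)
  · rw [cnt_eq_zero hLU hnL hdeg, cnt_eq_zero hLN (inf_le_left.trans hnL) hdeg]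
  rw [cnt_subgroupOf hLU le_rfl, cnt_subgroupOf hLN inf_le_left]
  set L' := L.subgroupOf U
  set K' := K.subgroupOf U
  set S' := S.subgroupOf U
  haveI hL'n : L'.Normal := normal_subgroupOf_of_le_normalizer hnL
  haveI hK'n : K'.Normal := normal_subgroupOf_of_le_normalizer hnK
  set eL := subgroupOfEquivOfLe hLU
  set ν' : IrrCharacter L' := irrComap eL ν with hν'
  have hdeg' : ¬ p ∣ Cfsg.charDegree (ν' : L' → ℂ) := by
    rwa [show Cfsg.charDegree (ν' : L' → ℂ) = Cfsg.charDegree (ν : L → ℂ) by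
      simp only [Cfsg.charDegree, hν', irrComap_coe, map_one]]
  have hinv : ∀ g, FixBy g ν' := fun g k k' he =>
    hν g g.2 (eL k) (eL k') (congrArg Subtype.val he)
  obtain ⟨X, _, _, r, μ, hr, hZc, hcnt⟩ := exists_model L' ν' hinv
  let mk := QuotientGroup.mk' L'
  have hmk : Function.Surjective mk := QuotientGroup.mk'_surjective L'
  set Kb := K'.map mk with hKb
  set Sb := S'.map mk with hSb
  set Kh := Kb.comap r with hKh
  set St := Sb.comap r with hSt
  haveI : Kb.Normal := hK'n.map mk hmk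
  haveI hKhn : Kh.Normal := inferInstanceAs (Kb.comap r).Normal
  have hZKh : r.ker ≤ Kh := fun z hz => by
    rw [hKh, mem_comap, show r z = 1 from hz]; exact one_mem _
  have hZSt : r.ker ≤ St := fun z hz => by
    rw [hSt, mem_comap, show r z = 1 from hz]; exact one_mem _
  have hKrel : ¬ p ∣ r.ker.relIndex Kh := by
    rw [← MonoidHom.comap_bot, relIndex_comap, hKh, map_comap_eq_self_of_surjective hr,
      relIndex_bot_left]
    intro hd
    apply hKp
    rw [← relIndex_subgroupOf hKU]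
    have h1 : Nat.card Kb = L'.relIndex K' := by
      rw [← relIndex_bot_left, hKb, ← relIndex_comap, MonoidHom.comap_bot, QuotientGroup.ker_mk']
    exact h1 ▸ hd
  have hSbp : IsPGroup p Sb := (hS.isP.of_equiv (subgroupOfEquivOfLe hS.le).symm).map mk
  have hSbidx : ¬ p ∣ Sb.index := fun hd => hS.ndvd (hd.trans (index_map_dvd _ hmk))
  have hStidx : ¬ p ∣ St.index := by rwa [hSt, index_comap_of_surjective _ hr]
  obtain ⟨Q₀⟩ : Nonempty (Sylow p St) := inferInstance
  set Q := (Q₀ : Subgroup St).map St.subtype with hQ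
  have hQSt : Q ≤ St := map_subtype_le _
  have hQp : IsPGroup p Q := Q₀.isPGroup'.map _
  have hQrel : ¬ p ∣ Q.relIndex St := by
    rw [relIndex, subgroupOf, hQ, comap_map_eq_self_of_injective St.subtype_injective]
    exact Q₀.not_dvd_index
  have hQX : IsSyl p Q ⊤ :=
    { le := le_top, isP := hQp
      ndvd := by
        rw [relIndex_top_right, ← relIndex_mul_index hQSt]
        intro hd
        rcases hp.out.dvd_mul.1 hd with hd | hd
        exacts [hQrel hd, hStidx hd] }
  have hmapQ : Q.map r = Sb := by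
    have hle : Q.map r ≤ Sb := map_le_iff_le_comap.2 hQSt
    refine le_antisymm hle ?_
    have h1 : (Q.map r).relIndex Sb ∣ Q.relIndex St := by
      rw [show (Q.map r).relIndex Sb = ((Q.map r).comap r).relIndex St by
        rw [relIndex_comap, hSt, map_comap_eq_self_of_surjective hr]]
      exact relIndex_dvd_of_le_left St (le_comap_map r Q)
    obtain ⟨j, hj⟩ := IsPGroup.iff_card.1 hSbp
    obtain ⟨i, -, hi⟩ := (Nat.dvd_prime_pow hp.out).1
      (hj ▸ relIndex_dvd_card (Q.map r) Sb)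
    rcases Nat.eq_zero_or_pos i with rfl | hi0
    · exact relIndex_eq_one.1 (by rw [hi, pow_zero])
    · exact absurd ((hi ▸ dvd_pow_self p hi0.ne').trans h1) hQrel
  have hStQ : St = Q ⊔ r.ker := by rw [hSt, ← hmapQ, comap_map_eq]
  have hQc : St ≤ normalizer (Q : Set X) := by
    rw [hStQ]
    refine sup_le le_normalizer fun z hz => mem_normalizer_iff.2 fun x => ?_
    rw [show z * x * z⁻¹ = x by
      rw [← mem_center_iff.1 (hZc hz) x, mul_inv_cancel_right]]
  have hmax : ∀ R : Subgroup X, R ≤ St → IsPGroup p R → R ≤ Q := by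
    intro R hR hRp
    have h1 : IsPGroup p (R ⊔ Q : Subgroup X) := hRp.to_sup_of_normal_right' hQp (hR.trans hQc)
    have h2 : Q.relIndex (R ⊔ Q) ∣ Q.relIndex St := by
      rw [← relIndex_mul_relIndex Q (R ⊔ Q) St le_sup_right (sup_le hR hQSt)]
      exact dvd_mul_right _ _
    obtain ⟨j, hj⟩ := IsPGroup.iff_card.1 h1
    obtain ⟨i, -, hi⟩ := (Nat.dvd_prime_pow hp.out).1 (hj ▸ relIndex_dvd_card Q (R ⊔ Q))
    rcases Nat.eq_zero_or_pos i with rfl | hi0
    · exact le_sup_left.trans (relIndex_eq_one.1 (by rw [hi, pow_zero]))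
    · exact absurd ((hi ▸ dvd_pow_self p hi0.ne').trans h2) hQrel
  have hNorm : normalizer (St : Set X) = normalizer (Q : Set X) := by
    refine le_antisymm (fun x hx => ?_) (fun x hx => ?_)
    · have hle : Q.map (MulAut.conj x).toMonoidHom ≤ Q := hmax _ (by
        rintro _ ⟨q, hq, rfl⟩
        exact (mem_normalizer_iff.1 hx q).1 (hQSt hq)) (hQp.map _)
      have heq : Q.map (MulAut.conj x).toMonoidHom = Q :=
        Subgroup.eq_of_le_of_card_ge hle
          (le_of_eq (Subgroup.card_map_of_injective (MulAut.conj x).injective).symm)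
      refine mem_normalizer_iff.2 fun z => ⟨fun hz => hle ⟨z, hz, rfl⟩, fun hz => ?_⟩
      obtain ⟨w, hw, hwe⟩ := heq.ge hz
      change x * w * x⁻¹ = x * z * x⁻¹ at hwe
      rwa [mul_left_cancel (mul_right_cancel hwe)] at hw
    · rw [hStQ]
      refine normalizer_le_sup Q r.ker x hx ?_
      rw [normalizer_eq_top_iff.2 (inferInstance : r.ker.Normal)]
      exact Subgroup.mem_top x
  have hKSn : (Kh ⊔ Q).Normal := by
    haveI : (K' ⊔ S').Normal := by
      rw [← subgroupOf_sup hKU hS.le]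
      exact normal_subgroupOf_of_le_normalizer hKS
    haveI : (Kb ⊔ Sb).Normal := by
      rw [hKb, hSb, ← Subgroup.map_sup]; exact Subgroup.Normal.map inferInstance mk hmk
    have h1 : Kh ⊔ Q = (Kb ⊔ Sb).comap r := by
      rw [← comap_sup_eq r Kb Sb hr, ← hSt, hStQ, ← hKh, ← sup_assoc, sup_right_comm,
        sup_eq_left.2 hZKh]
    rw [h1]
    infer_instance
  -- the subgroups of the model
  set N' := (U ⊓ normalizer ((L ⊔ S : Subgroup G) : Set G)).subgroupOf U with hN'
  have hLS' : (L ⊔ S).subgroupOf U = L' ⊔ S' := subgroupOf_sup hLU hS.le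
  have hN'eq : N' = normalizer ((L' ⊔ S' : Subgroup U) : Set U) := by
    rw [← hLS']
    ext x
    rw [hN', mem_subgroupOf, mem_inf, mem_normalizer_iff, mem_normalizer_iff]
    simp only [mem_subgroupOf, Subgroup.coe_mul, InvMemClass.coe_inv, SetLike.coe_mem, true_and]
    refine ⟨fun h y => h y, fun h y => ⟨fun hy => ?_, fun hy => ?_⟩⟩
    · exact (h ⟨y, sup_le hLU hS.le hy⟩).1 hy
    · have hyU : y ∈ U := by
        rw [show y = (x : G)⁻¹ * ((x : G) * y * (x : G)⁻¹) * x by group]
        exact mul_mem (mul_mem (inv_mem x.2) (sup_le hLU hS.le hy)) x.2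
      exact (h ⟨y, hyU⟩).2 hy
  have hNb : N'.map mk = normalizer (Sb : Set (U ⧸ L')) := by
    rw [hN'eq, show L' ⊔ S' = Sb.comap mk by
      rw [hSb, comap_map_eq, QuotientGroup.ker_mk', sup_comm],
      ← comap_normalizer_eq_of_surjective Sb hmk,
      map_comap_eq_self_of_surjective hmk]
  have hLN' : L' ≤ N' := subOf_mono hLN U
  have htop : (U.subgroupOf U).map mk = ⊤ := by
    rw [subgroupOf_self, map_top_of_surjective mk hmk]
  rw [hcnt p (U.subgroupOf U) _ ⊤ le_top (by rw [htop, comap_top]) hdeg',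
    hcnt p N' hLN' (normalizer (Q : Set X))
      (fun z hz => hNorm ▸ le_normalizer (hZSt hz))
      (by rw [hNb, comap_normalizer_eq_of_surjective Sb hr, ← hSt, hNorm]) hdeg']
  exact central_case hZc hZKh hKrel hQX hKSn μ _

theorem fixBy_sup {L S : Subgroup G} (hn : S ≤ normalizer (L : Set G)) {θ : IrrCharacter L}
    (h : ∀ s ∈ S, FixBy s θ) : ∀ g ∈ L ⊔ S, FixBy g θ := fun g hg =>
  ((sup_le (le_stab_self θ) (fun s hs => ⟨hn hs, h s hs⟩) : L ⊔ S ≤ stab θ) hg).2

/-- The statement for an invariant character. -/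
def InvCase (p : ℕ) (n : ℕ) (G : Type u) [Group G] [Finite G] : Prop :=
  ∀ (U L S : Subgroup G) (hLU : L ≤ U), U ≤ normalizer (L : Set G) → IsPSolvable p U →
    IsSyl p S U → L.relIndex U ≤ n → ∀ ν : IrrCharacter L, (∀ g ∈ U, FixBy g ν) →
      ∀ hLN : L ≤ U ⊓ normalizer ((L ⊔ S : Subgroup G) : Set G),
        cnt p hLU ν = cnt p hLN ν

/-- The general case follows from the invariant one. -/
theorem general_of_inv {n : ℕ} (h : InvCase p n G) {U L S : Subgroup G} (hLU : L ≤ U)
    (hn : U ≤ normalizer (L : Set G)) (hsolv : IsPSolvable p U) (hS : IsSyl p S U)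
    (hle : L.relIndex U ≤ n) (ν : IrrCharacter L) (hν : ∀ s ∈ S, FixBy s ν)
    (hLN : L ≤ U ⊓ normalizer ((L ⊔ S : Subgroup G) : Set G)) :
    cnt p hLU ν = cnt p hLN ν := by
  set T := U ⊓ stab ν with hT
  set N := U ⊓ normalizer ((L ⊔ S : Subgroup G) : Set G) with hN
  have hLT : L ≤ T := le_inf hLU (le_stab_self ν)
  have hST : S ≤ T := le_inf hS.le fun s hs => ⟨hn (hS.le hs), hν s hs⟩
  have hidx : ¬ p ∣ T.relIndex U := fun h => hS.ndvd (by
    rw [← relIndex_mul_relIndex S T U hST inf_le_left]; exact h.mul_left _)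
  have hST' : IsSyl p S T :=
    { le := hST, isP := hS.isP
      ndvd := fun h => hS.ndvd (by
        rw [← relIndex_mul_relIndex S T U hST inf_le_left]; exact h.mul_right _) }
  have hSN : S ≤ N := le_inf hS.le (le_sup_right.trans le_normalizer)
  have hLNs : L ≤ N ⊓ stab ν := le_inf hLN (le_stab_self ν)
  have hidx' : ¬ p ∣ (N ⊓ stab ν).relIndex N := fun h => hS.ndvd (by
    rw [← relIndex_mul_relIndex S N U hSN inf_le_left,
      ← relIndex_mul_relIndex S (N ⊓ stab ν) N (le_inf hSN fun s hs => ⟨hn (hS.le hs), hν s hs⟩)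
        inf_le_left]
    exact (h.mul_left _).mul_right _)
  rw [cnt_stab hLU hn ν hT hLT hidx,
    cnt_stab hLN (inf_le_left.trans hn) ν rfl hLNs hidx']
  have hLN' : L ≤ T ⊓ normalizer ((L ⊔ S : Subgroup G) : Set G) := le_inf hLT (hLN.trans inf_le_right)
  rw [h T L S hLT (inf_le_left.trans hn) (PSolv.isPSolvable_of_injective
      (inclusion (inf_le_left : T ≤ U)) (inclusion_injective _) hsolv) hST' ?_ ν
      (fun g hg => hg.2.2) hLN']
  · exact cnt_congr (by rw [hT, hN, inf_right_comm]) _ _ ν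
  · refine le_trans (Nat.le_of_dvd (Nat.pos_of_ne_zero (L.subgroupOf U).index_ne_zero_of_finite) ?_)
      hle
    show L.relIndex T ∣ L.relIndex U
    rw [← relIndex_mul_relIndex L T U hLT inf_le_left]
    exact dvd_mul_right _ _

theorem inv_case (n : ℕ) : InvCase p n G := by
  classical
  induction n using Nat.strong_induction_on with
  | _ n ih =>
  intro U L S hLU hnL hsolv hS hle ν hν hLN
  by_cases htriv : U ≤ normalizer ((L ⊔ S : Subgroup G) : Set G)
  · exact cnt_congr (inf_eq_left.2 htriv).symm _ _ ν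
  have hUL : ¬ U ≤ L := fun h => htriv fun g hg => le_normalizer (mem_sup_left (h hg))
  haveI hL'n : (L.subgroupOf U).Normal := normal_subgroupOf_of_le_normalizer hnL
  haveI : Nontrivial (U ⧸ L.subgroupOf U) :=
    QuotientGroup.nontrivial_iff.2 fun h => hUL (subgroupOf_eq_top.1 h)
  obtain ⟨Kb, hKbn, -, hKb, hKbcase⟩ := PSolv.exists_normal_le_of_isPSolvable
    (PSolv.isPSolvable_quotient hsolv (L.subgroupOf U)) ⊤ top_ne_bot
  set mk := QuotientGroup.mk' (L.subgroupOf U)
  have hmk : Function.Surjective mk := QuotientGroup.mk'_surjective _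
  haveI := hKbn
  set K := (Kb.comap mk).map U.subtype with hK
  have hKU : K ≤ U := map_subtype_le _
  have hK' : K.subgroupOf U = Kb.comap mk := comap_map_eq_self_of_injective U.subtype_injective _
  have hLK : L ≤ K := fun x hx => ⟨⟨x, hLU hx⟩, by
    show mk ⟨x, hLU hx⟩ ∈ Kb
    rw [show mk ⟨x, hLU hx⟩ = 1 from (QuotientGroup.eq_one_iff _).2 hx]
    exact one_mem _, rfl⟩
  have hnK : U ≤ normalizer (K : Set G) := by
    haveI : (K.subgroupOf U).Normal := hK' ▸ Subgroup.Normal.comap hKbn mk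
    exact normal_subgroupOf_iff_le_normalizer hKU |>.1 inferInstance
  have hcardKb : L.relIndex K = Nat.card Kb := by
    have h0 : (⊥ : Subgroup (U ⧸ L.subgroupOf U)).comap mk = L.subgroupOf U :=
      (MonoidHom.comap_bot mk).trans (QuotientGroup.ker_mk' _)
    rw [← relIndex_subgroupOf hKU, hK']
    refine (congrArg (fun J : Subgroup U => J.relIndex (Kb.comap mk)) h0.symm).trans ?_
    rw [relIndex_comap, map_comap_eq_self_of_surjective hmk, relIndex_bot_left]
  have hlt : K.relIndex U < n := by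
    refine lt_of_lt_of_le ?_ hle
    rw [← relIndex_mul_relIndex L K U hLK hKU, hcardKb]
    haveI := (Subgroup.nontrivial_iff_ne_bot Kb).2 hKb
    exact lt_mul_of_one_lt_left (Nat.pos_of_ne_zero (K.subgroupOf U).index_ne_zero_of_finite)
      Finite.one_lt_card
  set M := U ⊓ normalizer ((K ⊔ S : Subgroup G) : Set G) with hM
  have hKM : K ≤ M := le_inf hKU (le_sup_left.trans le_normalizer)
  have hSM : S ≤ M := le_inf hS.le (le_sup_right.trans le_normalizer)
  have hMU : M ≤ U := inf_le_left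
  have hSylM : IsSyl p S M :=
    { le := hSM, isP := hS.isP
      ndvd := fun h => hS.ndvd (by
        rw [← relIndex_mul_relIndex S M U hSM inf_le_left]; exact h.mul_right _) }
  letI := Fintype.ofFinite {θ : IrrCharacter K // rmult hLK θ ν ≠ 0 ∧ ∀ s ∈ S, FixBy s θ}
  -- double counting
  have hUM : cnt p hLU ν = cnt p (hLK.trans hKM) ν := by
    have e1 := cnt_eq_sum (p := p) hLK hKU hnK hnL hS ν hν
    have e2 := cnt_eq_sum (p := p) hLK hKM (hMU.trans hnK) (hMU.trans hnL) hSylM ν
      (fun g hg => hν g (hMU hg))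
    have h3 : (cnt p hLU ν : ℚ) = (cnt p (hLK.trans hKM) ν : ℚ) := by
      rw [show hLU = hLK.trans hKU from rfl, e1, e2]
      refine Finset.sum_congr rfl fun θ _ => ?_
      congr 2
      · exact general_of_inv (ih _ hlt) hKU hnK hsolv hS le_rfl θ.1 θ.2.2 hKM
      · unfold orb
        congr 1
        refine le_antisymm (le_inf (le_inf inf_le_left fun g hg => ?_) inf_le_right)
          (inf_le_inf_right _ hMU)
        exact normalizer_le_sup K S g (hnK hg.1) hg.2
    exact_mod_cast h3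
  rw [hUM]
  have hNM : U ⊓ normalizer ((L ⊔ S : Subgroup G) : Set G) ≤ M := by
    intro g hg
    refine ⟨hg.1, ?_⟩
    have h1 := normalizer_le_sup K (L ⊔ S) g (hnK hg.1) hg.2
    rwa [← sup_assoc, sup_eq_left.2 hLK] at h1
  have hMN : M ⊓ normalizer ((L ⊔ S : Subgroup G) : Set G) =
      U ⊓ normalizer ((L ⊔ S : Subgroup G) : Set G) :=
    le_antisymm (inf_le_inf_right _ hMU) (le_inf hNM inf_le_right)
  rcases hKbcase with hpK | hpK
  · -- `K ⧸ L` is a `p`-group
    have hKLS : K ≤ L ⊔ S := by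
      obtain ⟨j, hj⟩ := IsPGroup.iff_card.1 hpK
      obtain ⟨i, -, hi⟩ := (Nat.dvd_prime_pow hp.out).1
        (((hcardKb.trans hj)) ▸ relIndex_dvd_of_le_left K (le_sup_left : L ≤ L ⊔ S))
      rcases Nat.eq_zero_or_pos i with rfl | hi0
      · exact relIndex_eq_one.1 (by rw [hi, pow_zero])
      · exact absurd ((hi ▸ dvd_pow_self p hi0.ne').trans
          (relIndex_dvd_of_le_left K (le_sup_right : S ≤ L ⊔ S)))
          (syl_relIndex_normal hS hKU hnK)
    exact cnt_congr (by
      rw [hM, show K ⊔ S = L ⊔ S from le_antisymm (sup_le hKLS le_sup_right)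
        (sup_le_sup_right hLK S)]) _ _ ν
  · by_cases hMtop : U ≤ M
    · rw [cnt_congr (le_antisymm hMU hMtop) (hLK.trans hKM) (hLK.trans hKU) ν]
      exact step_central hLK hKU hnL hnK hS (hMtop.trans inf_le_right)
        (hcardKb ▸ hp.out.coprime_iff_not_dvd.1 hpK.symm) ν hν hLN
    · have hlt' : L.relIndex M < n := by
        refine lt_of_lt_of_le ?_ hle
        rw [← relIndex_mul_relIndex L M U (hLK.trans hKM) hMU]
        have h1 : M.relIndex U ≠ 1 := fun h => hMtop (relIndex_eq_one.1 h)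
        have h2 : M.relIndex U ≠ 0 := (M.subgroupOf U).index_ne_zero_of_finite
        exact lt_mul_of_one_lt_right
          (Nat.pos_of_ne_zero (L.subgroupOf M).index_ne_zero_of_finite) (by omega)
      have hLN' : L ≤ M ⊓ normalizer ((L ⊔ S : Subgroup G) : Set G) :=
        le_inf (hLK.trans hKM) (le_sup_left.trans le_normalizer)
      rw [ih _ hlt' M L S (hLK.trans hKM) (hMU.trans hnL)
        (PSolv.isPSolvable_of_injective (inclusion hMU) (inclusion_injective _) hsolv) hSylM
        le_rfl ν (fun g hg => hν g (hMU hg)) hLN']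
      exact cnt_congr hMN _ _ ν

/-- The relative count in a `p`-solvable group. -/
theorem rel_count (hG : IsPSolvable p G) (L : Subgroup G) [hL : L.Normal] (S : Sylow p G)
    (ν : IrrCharacter L) (hν : ∀ s ∈ (S : Subgroup G), FixBy s ν)
    (hLN : L ≤ normalizer ((L ⊔ (S : Subgroup G) : Subgroup G) : Set G)) :
    Nat.card {χ : IrrCharacter G //
        ¬ p ∣ Cfsg.charDegree (χ : G → ℂ) ∧ homMult L.subtype χ ν ≠ 0} = cnt p hLN ν := by
  have hnL : (⊤ : Subgroup G) ≤ normalizer (L : Set G) := by rw [normalizer_eq_top_iff.2 hL]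
  have hS : IsSyl p (S : Subgroup G) ⊤ :=
    { le := le_top, isP := S.isPGroup'
      ndvd := by rw [relIndex_top_right]; exact S.not_dvd_index }
  have h := general_of_inv (inv_case (L.relIndex ⊤)) le_top hnL
    (PSolv.isPSolvable_subgroup hG ⊤) hS le_rfl ν hν (le_inf le_top hLN)
  rw [cnt_congr (top_inf_eq _) (le_inf le_top hLN) hLN ν] at h
  rw [← h]
  let e : (⊤ : Subgroup G) ≃* G := Subgroup.topEquiv
  have hd : ∀ χ : IrrCharacter G,
      Cfsg.charDegree (irrComap e χ : (⊤ : Subgroup G) → ℂ) = Cfsg.charDegree (χ : G → ℂ) :=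
    fun χ => by simp only [Cfsg.charDegree, irrComap_coe, map_one]
  refine Nat.card_eq_of_bijective (fun χ : {χ : IrrCharacter G //
      ¬ p ∣ Cfsg.charDegree (χ : G → ℂ) ∧ homMult L.subtype χ ν ≠ 0} =>
    (⟨irrComap e χ.1, (hd χ.1).symm ▸ χ.2.1, χ.2.2⟩ :
      {ψ : IrrCharacter (⊤ : Subgroup G) // ¬ p ∣ Cfsg.charDegree (ψ : (⊤ : Subgroup G) → ℂ) ∧
        rmult (le_top : L ≤ ⊤) ψ ν ≠ 0})) ⟨fun a b he => ?_, fun b => ?_⟩
  · refine Subtype.ext (Subtype.ext (funext fun u => ?_))
    have h1 := congrFun (congrArg Subtype.val (congrArg Subtype.val he)) (e.symm u)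
    change (irrComap e a.1 : (⊤ : Subgroup G) → ℂ) _ = (irrComap e b.1 : (⊤ : Subgroup G) → ℂ) _
      at h1
    rwa [irrComap_coe, irrComap_coe, e.apply_symm_apply] at h1
  · have hb : irrComap e (irrComap e.symm b.1) = b.1 := irrComap_symm_irrComap e b.1
    refine ⟨⟨irrComap e.symm b.1, ?_, ?_⟩, Subtype.ext hb⟩
    · rw [← hd, hb]; exact b.2.1
    · exact b.2.2

end Cfsg.Agent.RelMcKay
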